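import Cfsg.Agent.R2.Spec.NA.Inst

/-!
# S3435, packet NON-A, `dimL t ≥ 5`, `m ≥ 5` (helper3): the relations

* `NE` : the hypotheses (as `NA.ND`, but `m ≥ 5` and the full torus of type `(k, m - k)`);
* `NE.bd` : the inequality; `NE.bigL` : the least common multiple of all tori.
-/

set_option autoImplicit false

namespace Cfsg.Agent.R2.Spec.NA5

open Cfsg.Agent.H403.NumTop Cfsg.Agent.R2.Spec.NA

/-- the hypotheses -/
structure NE (s e : Bool) (m k u q p H M N d : ℕ) (a b c : ℤ) : Prop where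
  k3 : 3 ≤ k
  km : k + 2 ≤ m
  nk : ¬ k ∣ ii s m
  u2 : 2 ≤ u
  ex1 : ¬ (e = false ∧ u = 2 ∧ k = 3)
  p_prime : p.Prime
  pq : p ∣ q
  q3 : 3 ≤ q
  rel : a * M = b * N + c
  typ : Typ q a b c
  hd : d ∣ AA e 1 u
  eqM : d * M = H * ZZ s e m u
  n1 : AA e k u ∣ N
  n2 : AA e (m - k) u ∣ d * N
  n3 : ∀ b, 1 ≤ b → b + k + 1 ≤ m → AA e b u ∣ d * N
  pu : ¬ p ∣ u
  pH : ¬ p ∣ H
  pN : ¬ p ∣ N

variable {s e : Bool} {m k u q p H M N d : ℕ} {a b c : ℤ}

theorem NE.n2' (h : NE s e m k u q p H M N d a b c) : YY e (m - k) u ∣ d * N := (YY_dvd h.u2).trans h.n2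

theorem NE.pd (h : NE s e m k u q p H M N d a b c) : ¬ p ∣ d := fun h1 =>
  h.pN (h1.trans (h.hd.trans ((AA1_dvd h.u2).trans h.n1)))

theorem NE.pdN (h : NE s e m k u q p H M N d a b c) : ¬ p ∣ d * N := fun h1 =>
  (h.p_prime.dvd_mul.1 h1).elim h.pd h.pN

theorem NE.pA1 (h : NE s e m k u q p H M N d a b c) : ¬ p ∣ AA e 1 u := fun h1 =>
  h.pN (h1.trans ((AA1_dvd h.u2).trans h.n1))

theorem NE.d_pos (h : NE s e m k u q p H M N d a b c) : 0 < d :=
  Nat.pos_of_dvd_of_pos h.hd (AA_pos h.u2 le_rfl)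

theorem NE.d_le (h : NE s e m k u q p H M N d a b c) : d ≤ AA e 1 u :=
  Nat.le_of_dvd (AA_pos h.u2 le_rfl) h.hd

theorem NE.d_le' (h : NE s e m k u q p H M N d a b c) : d ≤ u + 1 :=
  h.d_le.trans (by have := AA_le (e := e) (n := 1) (u := u); rwa [pow_one] at this)

/-- `rel_core` in the present situation, `T ∣ K` in the natural numbers -/
theorem NE.core' (h : NE s e m k u q p H M N d a b c) {T : ℕ} {E μ K ρ : ℤ} (hZ : E.natAbs = ZZ s e m u)
    (hE : μ * E = K + ρ) (hTK : T ∣ K.natAbs) (hTN : T ∣ d * N) (hpμ : ¬ p ∣ μ.natAbs) (hpK : ¬ p ∣ K.natAbs) :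
    T ≤ (q + 1) * (H * ρ.natAbs + μ.natAbs * d * (q + 1)) ∨
      (T2 a b c ∧ H * ρ.natAbs = μ.natAbs * d ∧ μ.natAbs * d * N = H * K.natAbs) :=
  rel_core h.p_prime h.pq h.q3 h.rel h.typ (E := E) (d := d) (H := H) (by rw [hZ]; exact h.eqM) hE
    (Int.natCast_dvd.2 hTK) hTN h.pH h.pd (fun h1 => hpμ (Int.natCast_dvd.1 h1)) (fun h1 => hpK (Int.natCast_dvd.1 h1))

/-- `rel_core` in the present situation, `T ∣ K` in the natural numbers -/
theorem NE.core (h : NE s e m k u q p H M N d a b c) {T : ℕ} {E μ K ρ : ℤ} (hZ : E.natAbs = ZZ s e m u)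
    (hE : μ * E = K + ρ) (hTK : T ∣ K.natAbs) (hTN : T ∣ d * N) (hpμ : ¬ p ∣ μ.natAbs) (hpK : ¬ p ∣ K.natAbs) :
    T ≤ (q + 1) * (H * ρ.natAbs + μ.natAbs * d * (q + 1)) ∨
      (H * ρ.natAbs = μ.natAbs * d ∧ μ.natAbs * d * N = H * K.natAbs) := by
  rcases h.core' hZ hE hTK hTN hpμ hpK with h1 | ⟨-, h1⟩
  · exact Or.inl h1
  · exact Or.inr h1

theorem NE.R1t (h : NE true e m k u q p H M N d a b c) :
    YY e k u ≤ (q + 1) * (H * YY e (m - k) u + 1 * d * (q + 1)) := by
  have hu := h.u2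
  have hk := h.k3
  have hkm := h.km
  have hE : (1 : ℤ) * Yz e m u = xv e u ^ (m - k) * Yz e k u + Yz e (m - k) u := by
    have h1 : Yz e m u = Yz e (m - k) u + xv e u ^ (m - k) * Yz e k u := by
      unfold Yz
      rw [Finset.mul_sum]
      conv_lhs => rw [show m = (m - k) + k by omega, Finset.sum_range_add]
      simp only [pow_add]
    rw [h1]; ring
  have hK : (xv e u ^ (m - k) * Yz e k u).natAbs = u ^ (m - k) * YY e k u := by
    rw [Int.natAbs_mul, Int.natAbs_pow, xv_natAbs, Yz_natAbs hu]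
  have h0 := h.core (T := YY e k u) (by rw [Yz_natAbs hu]; rfl) hE (by rw [hK]; exact Dvd.intro_left _ rfl)
    (((YY_dvd hu).trans h.n1).trans (Dvd.intro_left _ rfl)) (by
      intro h1; exact h.p_prime.one_lt.ne' (Nat.dvd_one.1 h1)) (by
      rw [hK]; intro h1
      rcases h.p_prime.dvd_mul.1 h1 with h2 | h2
      · exact h.pu (h.p_prime.dvd_of_dvd_pow h2)
      · exact h.pN (h2.trans ((YY_dvd hu).trans h.n1)))
  rw [Yz_natAbs hu, hK] at h0
  rcases h0 with h0 | ⟨h0, h1⟩
  · exact h0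
  · exfalso
    simp only [Int.natAbs_one, one_mul] at h0 h1
    obtain ⟨n, hn⟩ := h.n1
    have hH : 0 < H := by
      rcases Nat.eq_zero_or_pos H with h2 | h2
      · rw [h2, zero_mul] at h0; have := h.d_pos; omega
      · exact h2
    have e1 : AA e (m - k) u * n = u ^ (m - k) := by
      refine Nat.eq_of_mul_eq_mul_left (Nat.mul_pos hH (YY_pos (e := e) (n := k) hu (by omega))) ?_
      calc H * YY e k u * (AA e (m - k) u * n) = H * YY e k u * (YY e (m - k) u * AA e 1 u * n) := by rw [YY_mul hu]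
        _ = H * YY e (m - k) u * (YY e k u * AA e 1 u * n) := by ring
        _ = d * N := by rw [h0, YY_mul hu, hn]
        _ = _ := by rw [h1]; ring
    have e2 := cop_eq_one e1 (Nat.Coprime.pow_left _ (cop_u hu (by omega)))
    have e3 := le_AA (e := e) (n := m - k) (u := u)
    have e4 : u ^ 2 ≤ u ^ (m - k) := Nat.pow_le_pow_right (by omega) (by omega)
    nlinarith

theorem NE.R2t (h : NE true e m k u q p H M N d a b c) :
    YY e (m - k) u ≤ (q + 1) * (H * YY e k u + 1 * d * (q + 1)) := by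
  have hu := h.u2
  have hk := h.k3
  have hkm := h.km
  have hE : (1 : ℤ) * Yz e m u = xv e u ^ k * Yz e (m - k) u + Yz e k u := by
    have h1 : Yz e m u = Yz e k u + xv e u ^ k * Yz e (m - k) u := by
      unfold Yz
      rw [Finset.mul_sum]
      conv_lhs => rw [show m = k + (m - k) by omega, Finset.sum_range_add]
      simp only [pow_add]
    rw [h1]; ring
  have hK : (xv e u ^ k * Yz e (m - k) u).natAbs = u ^ k * YY e (m - k) u := by
    rw [Int.natAbs_mul, Int.natAbs_pow, xv_natAbs, Yz_natAbs hu]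
  have h0 := h.core (T := YY e (m - k) u) (by rw [Yz_natAbs hu]; rfl) hE (by rw [hK]; exact Dvd.intro_left _ rfl)
    h.n2' (by intro h1; exact h.p_prime.one_lt.ne' (Nat.dvd_one.1 h1)) (by
      rw [hK]; intro h1
      rcases h.p_prime.dvd_mul.1 h1 with h2 | h2
      · exact h.pu (h.p_prime.dvd_of_dvd_pow h2)
      · exact h.pdN (h2.trans h.n2'))
  rw [Yz_natAbs hu, hK] at h0
  rcases h0 with h0 | ⟨h0, h1⟩
  · exact h0
  · exfalso
    simp only [Int.natAbs_one, one_mul] at h0 h1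
    have hH : 1 ≤ H := by
      rcases Nat.eq_zero_or_pos H with h2 | h2
      · rw [h2, zero_mul] at h0; have := h.d_pos; omega
      · exact h2
    have h2 := AAk_big (e := e) hu hk h.ex1
    have h3 := h.d_le
    nlinarith

theorem NE.P0t (h : NE true e m k u q p H M N d a b c)
    (hz : d < H * ((YY e k u - YY e (m - k) u) + (YY e (m - k) u - YY e k u))) :
    Nat.lcm (AA e k u) (YY e (m - k) u) ≤ (q + 1) * (H * (YY e k u + YY e (m - k) u) + 1 * d * (q + 1)) := by
  have hu := h.u2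
  have hk := h.k3
  have hkm := h.km
  have hE : (1 : ℤ) * Yz e m u = (xv e u ^ k - 1) * Yz e (m - k) u + (Yz e k u + Yz e (m - k) u) := by
    have h1 : Yz e m u = Yz e k u + xv e u ^ k * Yz e (m - k) u := by
      unfold Yz
      rw [Finset.mul_sum]
      conv_lhs => rw [show m = k + (m - k) by omega, Finset.sum_range_add]
      simp only [pow_add]
    rw [h1]; ring
  have hK : ((xv e u ^ k - 1) * Yz e (m - k) u).natAbs = AA e k u * YY e (m - k) u := by
    rw [Int.natAbs_mul, AA_natAbs (by omega), Yz_natAbs hu]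
  have h0 := h.core (T := Nat.lcm (AA e k u) (YY e (m - k) u)) (by rw [Yz_natAbs hu]; rfl) hE
    (by rw [hK]; exact Nat.lcm_dvd_mul _ _)
    (Nat.lcm_dvd (h.n1.trans (Dvd.intro_left _ rfl)) h.n2')
    (by intro h1; exact h.p_prime.one_lt.ne' (Nat.dvd_one.1 h1)) (by
      rw [hK]; intro h1
      rcases h.p_prime.dvd_mul.1 h1 with h2 | h2
      · exact h.pN (h2.trans h.n1)
      · exact h.pdN (h2.trans h.n2'))
  rcases h0 with h0 | ⟨h0, -⟩
  · refine h0.trans (Nat.mul_le_mul_left _ (Nat.add_le_add (Nat.mul_le_mul_left _ ?_) ?_))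
    · refine (Int.natAbs_add_le _ _).trans ?_
      rw [Yz_natAbs hu, Yz_natAbs hu]
    · rw [Int.natAbs_one]
  · exfalso
    rw [Int.natAbs_one, one_mul] at h0
    have h2 : (YY e k u - YY e (m - k) u) + (YY e (m - k) u - YY e k u) ≤ (Yz e k u + Yz e (m - k) u).natAbs := by
      rw [← Yz_natAbs hu, ← Yz_natAbs hu]; omega
    have h3 := Nat.mul_le_mul_left H h2
    omega

theorem NE.R1f' (h : NE false e m k u q p H M N d a b c) :
    AA e k u ≤ (q + 1) * (H * AA e (m - 1 - k) u + 1 * d * (q + 1)) ∨ (T2 a b c ∧ e = true ∧ u = 2 ∧ k + 2 = m) := by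
  have hu := h.u2
  have hk := h.k3
  have hkm := h.km
  have hE : (1 : ℤ) * (xv e u ^ (m - 1) - 1) = xv e u ^ (m - 1 - k) * (xv e u ^ k - 1) + (xv e u ^ (m - 1 - k) - 1) := by
    conv_lhs => rw [show m - 1 = (m - 1 - k) + k by omega, pow_add]
    ring
  have hK : (xv e u ^ (m - 1 - k) * (xv e u ^ k - 1)).natAbs = u ^ (m - 1 - k) * AA e k u := by
    rw [Int.natAbs_mul, Int.natAbs_pow, xv_natAbs, AA_natAbs (by omega)]
  have h0 := h.core' (T := AA e k u) (by rw [AA_natAbs (by omega)]; rfl) hE (by rw [hK]; exact Dvd.intro_left _ rfl)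
    (h.n1.trans (Dvd.intro_left _ rfl)) (by
      intro h1; exact h.p_prime.one_lt.ne' (Nat.dvd_one.1 h1)) (by
      rw [hK]; intro h1
      rcases h.p_prime.dvd_mul.1 h1 with h2 | h2
      · exact h.pu (h.p_prime.dvd_of_dvd_pow h2)
      · exact h.pN (h2.trans h.n1))
  rw [AA_natAbs (by omega), hK] at h0
  rcases h0 with h0 | ⟨hT, h0, h1⟩
  · exact Or.inl h0
  · right
    simp only [Int.natAbs_one, one_mul] at h0 h1
    obtain ⟨n, hn⟩ := h.n1
    have hH : 0 < H := by
      rcases Nat.eq_zero_or_pos H with h2 | h2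
      · rw [h2, zero_mul] at h0; have := h.d_pos; omega
      · exact h2
    have e1 : AA e (m - 1 - k) u * n = u ^ (m - 1 - k) := by
      refine Nat.eq_of_mul_eq_mul_left (Nat.mul_pos hH (AA_pos (e := e) (n := k) hu (by omega))) ?_
      calc H * AA e k u * (AA e (m - 1 - k) u * n) = H * AA e (m - 1 - k) u * (AA e k u * n) := by ring
        _ = d * N := by rw [h0, hn]
        _ = _ := by rw [h1]; ring
    have e2 := cop_eq_one e1 (Nat.Coprime.pow_left _ (cop_u hu (by omega)))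
    have e3 := le_AA (e := e) (n := m - 1 - k) (u := u)
    have e5 : m - 1 - k = 1 := by
      by_contra hcon
      have e4 : u ^ 2 ≤ u ^ (m - 1 - k) := Nat.pow_le_pow_right (by omega) (by omega)
      nlinarith
    rw [e2, e5, pow_one] at e3
    have e6 : u = 2 := by omega
    refine ⟨hT, ?_, e6, by omega⟩
    cases e with
    | true => rfl
    | false => rw [e5, e6] at e2; exact absurd e2 (by decide)

theorem NE.R1f (h : NE false e m k u q p H M N d a b c) (hex : ¬ (e = true ∧ u = 2 ∧ k + 2 = m)) :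
    AA e k u ≤ (q + 1) * (H * AA e (m - 1 - k) u + 1 * d * (q + 1)) :=
  h.R1f'.resolve_right fun h1 => hex h1.2

theorem NE.R2f (h : NE false e m k u q p H M N d a b c) :
    YY e (m - k) u ≤ (q + 1) * (H * AA e (k - 1) u + 1 * d * (q + 1)) := by
  have hu := h.u2
  have hk := h.k3
  have hkm := h.km
  have hE : (1 : ℤ) * (xv e u ^ (m - 1) - 1) = xv e u ^ (k - 1) * (xv e u ^ (m - k) - 1) + (xv e u ^ (k - 1) - 1) := by
    conv_lhs => rw [show m - 1 = (k - 1) + (m - k) by omega, pow_add]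
    ring
  have hK : (xv e u ^ (k - 1) * (xv e u ^ (m - k) - 1)).natAbs = u ^ (k - 1) * AA e (m - k) u := by
    rw [Int.natAbs_mul, Int.natAbs_pow, xv_natAbs, AA_natAbs (by omega)]
  have h0 := h.core (T := YY e (m - k) u) (by rw [AA_natAbs (by omega)]; rfl) hE
    (by rw [hK]; exact (YY_dvd hu).mul_left _) h.n2'
    (by intro h1; exact h.p_prime.one_lt.ne' (Nat.dvd_one.1 h1)) (by
      rw [hK]; intro h1
      rcases h.p_prime.dvd_mul.1 h1 with h2 | h2
      · exact h.pu (h.p_prime.dvd_of_dvd_pow h2)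
      · rw [← YY_mul hu] at h2
        rcases h.p_prime.dvd_mul.1 h2 with h3 | h3
        · exact h.pdN (h3.trans h.n2')
        · exact h.pA1 h3)
  rw [AA_natAbs (by omega), hK] at h0
  rcases h0 with h0 | ⟨h0, h1⟩
  · exact h0
  · exfalso
    simp only [Int.natAbs_one, one_mul] at h0 h1
    have hH : 1 ≤ H := by
      rcases Nat.eq_zero_or_pos H with h2 | h2
      · rw [h2, zero_mul] at h0; have := h.d_pos; omega
      · exact h2
    have h2 : AA e 1 u < AA e (k - 1) u := by
      have h3 : u ^ 2 ≤ u ^ (k - 1) := Nat.pow_le_pow_right (by omega) (by omega)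
      have h4 := le_AA (e := e) (n := k - 1) (u := u)
      cases e with
      | true =>
        rw [AA_true, pow_one]
        have h5 : u ^ 2 ≥ 2 * u := by nlinarith
        omega
      | false =>
        rw [AA_false_odd (n := 1) rfl, pow_one]
        rcases Nat.lt_or_ge 2 u with h6 | h6
        · have h5 : u ^ 2 ≥ 3 * u := by nlinarith
          omega
        · have h7 : u = 2 := by omega
          subst h7
          have h8 : 4 ≤ k := by
            rcases Nat.lt_or_ge 3 k with h6 | h6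
            · omega
            · exact absurd ⟨rfl, rfl, by omega⟩ h.ex1
          have h6 : 2 ^ 3 ≤ 2 ^ (k - 1) := Nat.pow_le_pow_right (by omega) (by omega)
          omega
    have h3 := h.d_le
    nlinarith

theorem NE.P0f (h : NE false e m k u q p H M N d a b c)
    (hz : u * d < H * (((AA e k u - AA e (m - k) u) + (AA e (m - k) u - AA e k u)) - AA e 1 u)) :
    Nat.lcm (AA e k u) (YY e (m - k) u) ≤
      (q + 1) * (H * (AA e k u + AA e (m - k) u + AA e 1 u) + u * d * (q + 1)) := by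
  have hu := h.u2
  have hk := h.k3
  have hkm := h.km
  have hE : xv e u * (xv e u ^ (m - 1) - 1) = (xv e u ^ k - 1) * (xv e u ^ (m - k) - 1) +
      ((xv e u ^ k - 1) + (xv e u ^ (m - k) - 1) - (xv e u ^ 1 - 1)) := by
    have h1 : xv e u * xv e u ^ (m - 1) = xv e u ^ k * xv e u ^ (m - k) := by
      rw [← pow_succ', ← pow_add]; congr 1; omega
    linear_combination h1
  have hK : ((xv e u ^ k - 1) * (xv e u ^ (m - k) - 1)).natAbs = AA e k u * AA e (m - k) u := by
    rw [Int.natAbs_mul, AA_natAbs (by omega), AA_natAbs (by omega)]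
  have h0 := h.core (T := Nat.lcm (AA e k u) (YY e (m - k) u)) (by rw [AA_natAbs (by omega)]; rfl) hE
    (by rw [hK]; exact (Nat.lcm_dvd_mul _ _).trans (Nat.mul_dvd_mul_left _ (YY_dvd hu)))
    (Nat.lcm_dvd (h.n1.trans (Dvd.intro_left _ rfl)) h.n2')
    (by rw [xv_natAbs]; exact h.pu) (by
      rw [hK]; intro h1
      rcases h.p_prime.dvd_mul.1 h1 with h2 | h2
      · exact h.pN (h2.trans h.n1)
      · rw [← YY_mul hu] at h2
        rcases h.p_prime.dvd_mul.1 h2 with h3 | h3
        · exact h.pdN (h3.trans h.n2')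
        · exact h.pA1 h3)
  rw [xv_natAbs] at h0
  rcases h0 with h0 | ⟨h0, -⟩
  · refine h0.trans (Nat.mul_le_mul_left _ (Nat.add_le_add_right (Nat.mul_le_mul_left _ ?_) _))
    refine (Int.natAbs_sub_le _ _).trans ?_
    rw [AA_natAbs (n := 1) (by omega)]
    refine Nat.add_le_add_right ((Int.natAbs_add_le _ _).trans ?_) _
    rw [AA_natAbs (by omega), AA_natAbs (by omega)]
  · exfalso
    have h2 : ((AA e k u - AA e (m - k) u) + (AA e (m - k) u - AA e k u)) - AA e 1 u ≤
        ((xv e u ^ k - 1) + (xv e u ^ (m - k) - 1) - (xv e u ^ 1 - 1)).natAbs := by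
      rw [← AA_natAbs (n := 1) (show 1 ≤ u by omega), ← AA_natAbs (n := k) (show 1 ≤ u by omega),
        ← AA_natAbs (n := m - k) (show 1 ≤ u by omega)]
      omega
    have h3 := Nat.mul_le_mul_left H h2
    omega

theorem NE.P1f (h : NE false e m k u q p H M N d a b c) 
    (hz : d < H * ((AA e k u - AA e (m - 1 - k) u) + (AA e (m - 1 - k) u - AA e k u))) :
    Nat.lcm (AA e k u) (AA e (m - 1 - k) u) ≤
      (q + 1) * (H * (AA e k u + AA e (m - 1 - k) u) + 1 * d * (q + 1)) := by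
  have hu := h.u2
  have hk := h.k3
  have hkm := h.km
  have hE : 1 * (xv e u ^ (m - 1) - 1) = (xv e u ^ k - 1) * (xv e u ^ (m - 1 - k) - 1) +
      ((xv e u ^ k - 1) + (xv e u ^ (m - 1 - k) - 1)) := by
    have h1 : xv e u ^ (m - 1) = xv e u ^ k * xv e u ^ (m - 1 - k) := by
      rw [← pow_add]; congr 1; omega
    linear_combination h1
  have hK : ((xv e u ^ k - 1) * (xv e u ^ (m - 1 - k) - 1)).natAbs = AA e k u * AA e (m - 1 - k) u := by
    rw [Int.natAbs_mul, AA_natAbs (by omega), AA_natAbs (by omega)]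
  have hn3 := h.n3 (m - 1 - k) (by omega) (by omega)
  have h0 := h.core (T := Nat.lcm (AA e k u) (AA e (m - 1 - k) u)) (by rw [AA_natAbs (by omega)]; rfl) hE
    (by rw [hK]; exact Nat.lcm_dvd_mul _ _)
    (Nat.lcm_dvd (h.n1.trans (Dvd.intro_left _ rfl)) hn3)
    (by intro h1; exact h.p_prime.one_lt.ne' (Nat.dvd_one.1 h1)) (by
      rw [hK]; intro h1
      rcases h.p_prime.dvd_mul.1 h1 with h2 | h2
      · exact h.pN (h2.trans h.n1)
      · exact h.pdN (h2.trans hn3))
  rcases h0 with h0 | ⟨h0, -⟩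
  · refine h0.trans (Nat.mul_le_mul_left _ (Nat.add_le_add (Nat.mul_le_mul_left _ ?_) ?_))
    · refine (Int.natAbs_add_le _ _).trans ?_
      rw [AA_natAbs (by omega), AA_natAbs (by omega)]
    · rw [Int.natAbs_one]
  · exfalso
    rw [Int.natAbs_one, one_mul] at h0
    have h2 : (AA e k u - AA e (m - 1 - k) u) + (AA e (m - 1 - k) u - AA e k u) ≤
        ((xv e u ^ k - 1) + (xv e u ^ (m - 1 - k) - 1)).natAbs := by
      rw [← AA_natAbs (n := k) (show 1 ≤ u by omega), ← AA_natAbs (n := m - 1 - k) (show 1 ≤ u by omega)]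
      omega
    have h3 := Nat.mul_le_mul_left H h2
    omega

theorem NE.bd (h : NE s e m k u q p H M N d a b c) (j : ℕ) (hz : rZ s e m k u d H j = true) :
    rT s e m k u j ≤ (q + 1) * (H * rR s e m k u j + rMu s u j * d * (q + 1)) := by
  match j, hz with
  | 0, hz =>
    cases s with
    | true => exact h.R1t
    | false =>
      refine h.R1f ?_
      rintro ⟨h1, h2, h3⟩
      simp [rZ, h1, h2, h3] at hz
  | 1, _ =>
    cases s with
    | true => exact h.R2t
    | false => exact h.R2f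
  | 2, hz =>
    cases s with
    | true => exact h.P0t (by simpa [rZ] using hz)
    | false => exact h.P0f (by simpa [rZ] using hz)
  | 3, hz =>
    cases s with
    | true => simp [rZ] at hz
    | false => exact h.P1f (by simpa [rZ] using hz)
  | n + 4, hz => simp [rZ] at hz


/-- the number `N` is not large -/
theorem N_le (hq : 3 ≤ q) (hrel : a * M = b * N + c) (ht : Typ q a b c) (hs : q ^ 5 ≤ 48 * M) : N ≤ 4 * M := by
  have hM : (q : ℤ) ^ 5 ≤ 48 * M := by exact_mod_cast hs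
  have hq' : (3 : ℤ) ≤ q := by exact_mod_cast hq
  have hM2 : (q : ℤ) + 5 ≤ 2 * M := by
    have h1 : (q : ℤ) ^ 5 = q * q ^ 4 := by ring
    have h2 : (81 : ℤ) ≤ q ^ 4 := by
      have : (3 : ℤ) ^ 4 ≤ q ^ 4 := pow_le_pow_left₀ (by norm_num) hq' 4
      norm_num at this; exact this
    nlinarith
  have hcM : |c| ≤ (q + 1) ^ 2 := by
    have h1 := ht.c_le (show 2 ≤ q by omega)
    have h2 : (c.natAbs : ℤ) ≤ ((q + 1) * (q + 1) : ℕ) := by exact_mod_cast h1
    rw [Int.natCast_natAbs] at h2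
    push_cast at h2
    linarith
  have hc1 := neg_abs_le c
  have hM0 : (0 : ℤ) ≤ M := Int.natCast_nonneg _
  suffices h : (N : ℤ) ≤ 4 * M by exact_mod_cast h
  rcases ht with ⟨s, hs, hab, -⟩ | ⟨h1, h2, h3⟩
  · have hs1 : s ≤ 1 ∧ -1 ≤ s := by rcases hs with rfl | rfl <;> constructor <;> norm_num
    rcases hab with ⟨rfl, rfl⟩ | ⟨rfl, rfl⟩
    · -- `a = q + s`, `b = q`
      by_contra hcon
      push Not at hcon
      have h4 : (q : ℤ) * (4 * M + 1) ≤ q * N := by
        apply mul_le_mul_of_nonneg_left _ (by linarith); omega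
      have h5 : (q : ℤ) * N = (q + s) * M - c := by linarith
      have h6 : ((q : ℤ) + s) * M ≤ (q + 1) * M := by nlinarith
      have h7 : (q : ℤ) * (4 * M + 1) ≤ (q + 1) * M + (q + 1) ^ 2 := by linarith
      nlinarith
    · by_contra hcon
      push Not at hcon
      have h4 : ((q : ℤ) + s) * (4 * M + 1) ≤ (q + s) * N := by
        apply mul_le_mul_of_nonneg_left _ (by linarith [hs1.2]); omega
      have h5 : ((q : ℤ) + s) * N = q * M - c := by linarith
      have h6 : ((q : ℤ) - 1) * (4 * M + 1) ≤ (q + s) * (4 * M + 1) := by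
        apply mul_le_mul_of_nonneg_right _ (by linarith); linarith [hs1.2]
      have h7 : ((q : ℤ) - 1) * (4 * M + 1) ≤ q * M + (q + 1) ^ 2 := by linarith
      nlinarith
  · rw [h1, h2] at hrel
    have h4 : c ≤ 1 ∧ -1 ≤ c := by rcases h3 with rfl | rfl <;> constructor <;> norm_num
    linarith [h4.2]

/-- the least common multiple of the tori -/
def bigL (e : Bool) (m k u : ℕ) : ℕ :=
  (List.range (m - 1 - k)).foldr (fun i x => Nat.lcm (AA e (i + 1) u) x) (Nat.lcm (AA e k u) (AA e (m - k) u))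

theorem foldr_dvd {e : Bool} {u x0 X : ℕ} (h0 : x0 ∣ X) : ∀ L : List ℕ, (∀ i ∈ L, AA e (i + 1) u ∣ X) →
    L.foldr (fun i x => Nat.lcm (AA e (i + 1) u) x) x0 ∣ X := by
  intro L
  induction L with
  | nil => intro _; exact h0
  | cons i L ih =>
    intro hL
    exact Nat.lcm_dvd (hL i List.mem_cons_self) (ih fun j hj => hL j (List.mem_cons_of_mem _ hj))

theorem dvd_foldr {e : Bool} {u x0 : ℕ} : ∀ L : List ℕ, x0 ∣ L.foldr (fun i x => Nat.lcm (AA e (i + 1) u) x) x0 := by
  intro L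
  induction L with
  | nil => exact dvd_rfl
  | cons i L ih => exact ih.trans (Nat.dvd_lcm_right _ _)

theorem dvd_foldr_mem {e : Bool} {u x0 : ℕ} : ∀ L : List ℕ, ∀ i ∈ L,
    AA e (i + 1) u ∣ L.foldr (fun i x => Nat.lcm (AA e (i + 1) u) x) x0 := by
  intro L
  induction L with
  | nil => intro i hi; cases hi
  | cons j L ih =>
    intro i hi
    rcases List.mem_cons.1 hi with rfl | hi
    · exact Nat.dvd_lcm_left _ _
    · exact (ih i hi).trans (Nat.dvd_lcm_right _ _)

theorem NE.bigL_dvd (h : NE s e m k u q p H M N d a b c) : bigL e m k u ∣ d * N := by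
  refine foldr_dvd (Nat.lcm_dvd (h.n1.trans (Dvd.intro_left _ rfl)) h.n2) _ fun i hi => ?_
  have := List.mem_range.1 hi
  exact h.n3 (i + 1) (by omega) (by omega)

theorem NE.N_pos (h : NE s e m k u q p H M N d a b c) : 0 < N := by
  rcases Nat.eq_zero_or_pos N with h0 | h0
  · exact absurd (by rw [h0]; exact dvd_zero p) h.pN
  · exact h0

theorem NE.bigL_le (h : NE s e m k u q p H M N d a b c) (hs : q ^ 5 ≤ 48 * M) :
    bigL e m k u ≤ 4 * (H * ZZ s e m u) := by
  calc bigL e m k u ≤ d * N := Nat.le_of_dvd (Nat.mul_pos h.d_pos h.N_pos) h.bigL_dvd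
    _ ≤ d * (4 * M) := Nat.mul_le_mul_left _ (N_le h.q3 h.rel h.typ hs)
    _ = 4 * (H * ZZ s e m u) := by rw [← h.eqM]; ring

end Cfsg.Agent.R2.Spec.NA5
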