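import Cfsg.Agent.R2.Spec.NA.Crude
import Cfsg.Agent.R2.Spec.NA5.Inst5

/-!
# S3435, packet NON-A, `dimL t ≥ 5` (helper3): the crude inequalities
-/

set_option autoImplicit false

namespace Cfsg.Agent.R2.Spec.NA5

open Cfsg.Agent.R2.Spec.NA
open Cfsg.Agent.H403.NumTop hiding nu

/-- the sufficient condition -/
def chk5 (θ T ρ μ d H Z : ℕ) : Bool :=
  decide ((θ * (H * ρ)) ^ 5 * (203 * (H * Z)) < ((θ - 1) * T) ^ 5 * d) &&
    decide ((θ * (μ * d)) ^ 5 * (203 ^ 2 * (H * Z) ^ 2) < T ^ 5 * d ^ 2)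

theorem semi5_false {θ T ρ μ d H Z M q : ℕ} (hθ : 1 ≤ θ) (hq : 3 ≤ q) (hM : d * M = H * Z) (hs : q ^ 5 ≤ 48 * M)
    (hT : T ≤ (q + 1) * (H * ρ + μ * d * (q + 1))) (h : chk5 θ T ρ μ d H Z = true) : False := by
  have h1 : (q + 1) ^ 5 ≤ 203 * M := by
    have h2 : 3 * (q + 1) ≤ 4 * q := by omega
    have h3 := Nat.pow_le_pow_left h2 5
    rw [mul_pow, mul_pow] at h3
    have h4 : 3 ^ 5 * (q + 1) ^ 5 ≤ 4 ^ 5 * (48 * M) := h3.trans (Nat.mul_le_mul_left _ hs)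
    omega
  rw [chk5, Bool.and_eq_true, decide_eq_true_eq, decide_eq_true_eq] at h
  obtain ⟨c1, c2⟩ := h
  rw [← hM] at c1 c2
  have k1 : θ * (H * ρ) * (q + 1) < (θ - 1) * T := by
    by_contra hcon
    have h5 := Nat.pow_le_pow_left (not_lt.1 hcon) 5
    have h6 : ((θ - 1) * T) ^ 5 * d ≤ (θ * (H * ρ)) ^ 5 * (203 * (d * M)) := by
      calc ((θ - 1) * T) ^ 5 * d ≤ (θ * (H * ρ) * (q + 1)) ^ 5 * d := Nat.mul_le_mul_right _ h5
        _ = (θ * (H * ρ)) ^ 5 * ((q + 1) ^ 5 * d) := by rw [mul_pow]; ring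
        _ ≤ (θ * (H * ρ)) ^ 5 * (203 * M * d) := Nat.mul_le_mul_left _ (Nat.mul_le_mul_right _ h1)
        _ = _ := by ring
    omega
  have k2 : θ * (μ * d) * (q + 1) ^ 2 < T := by
    by_contra hcon
    have h5 := Nat.pow_le_pow_left (not_lt.1 hcon) 5
    have h6 : T ^ 5 * d ^ 2 ≤ (θ * (μ * d)) ^ 5 * (203 ^ 2 * (d * M) ^ 2) := by
      calc T ^ 5 * d ^ 2 ≤ (θ * (μ * d) * (q + 1) ^ 2) ^ 5 * d ^ 2 := Nat.mul_le_mul_right _ h5
        _ = (θ * (μ * d)) ^ 5 * (((q + 1) ^ 5) ^ 2 * d ^ 2) := by rw [mul_pow]; ring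
        _ ≤ (θ * (μ * d)) ^ 5 * ((203 * M) ^ 2 * d ^ 2) :=
          Nat.mul_le_mul_left _ (Nat.mul_le_mul_right _ (Nat.pow_le_pow_left h1 2))
        _ = _ := by ring
    omega
  have k3 : θ * T < θ * T := by
    calc θ * T ≤ θ * ((q + 1) * (H * ρ + μ * d * (q + 1))) := Nat.mul_le_mul_left _ hT
      _ = θ * (H * ρ) * (q + 1) + θ * (μ * d) * (q + 1) ^ 2 := by ring
      _ < (θ - 1) * T + T := Nat.add_lt_add k1 k2
      _ = (θ - 1 + 1) * T := by ring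
      _ = θ * T := by rw [Nat.sub_add_cancel hθ]
  exact lt_irrefl _ k3

def L1 : ℕ → ℕ
  | 0 => 406 * 2 ^ 15
  | 1 => 406 * 2 ^ 15
  | _ => 406 * 2 ^ 30

def L2 : ℕ → ℕ
  | 0 => 41209 * 2 ^ 15
  | 1 => 41209 * 2 ^ 15
  | _ => 41209 * 2 ^ 25

/-- the zero case is excluded -/
def z5 (s : Bool) (m k u : ℕ) : ℕ → Bool
  | 0 => true
  | 1 => true
  | 2 => decide (k ≠ m - k) && (decide (6 ≤ min k (m - k)) || (decide (5 ≤ u) && decide (2 ≤ min k (m - k))))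
  | 3 => !s && (decide (k ≠ m - 1 - k) &&
      (decide (6 ≤ min k (m - 1 - k)) || (decide (5 ≤ u) && decide (2 ≤ min k (m - 1 - k)))))
  | _ => false

theorem z5_zc {s : Bool} {m k u j : ℕ} (hu : 2 ≤ u) (h : z5 s m k u j = true) : zc s m k u j = true := by
  have key : ∀ x : ℕ, (6 ≤ x ∨ (5 ≤ u ∧ 2 ≤ x)) → (u + 1) ^ 2 + 2 < u ^ x * (u - 1) := by
    intro x hx
    rcases hx with hx | ⟨h5, hx⟩
    · have h3 : 2 ^ 4 ≤ u ^ 4 := Nat.pow_le_pow_left hu 4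
      have h4 : u ^ 6 = u ^ 4 * u ^ 2 := by rw [← pow_add]
      have h5 : u ^ 6 * 1 ≤ u ^ x * (u - 1) := Nat.mul_le_mul (Nat.pow_le_pow_right (by omega) hx) (by omega)
      have h6 : 16 * u ^ 2 ≤ u ^ 6 := by rw [h4]; exact Nat.mul_le_mul_right _ h3
      nlinarith
    · have h6 : u ^ 2 * 4 ≤ u ^ x * (u - 1) := Nat.mul_le_mul (Nat.pow_le_pow_right (by omega) hx) (by omega)
      nlinarith
  match j, h with
  | 0, _ => rfl
  | 1, _ => rfl
  | 2, h =>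
    simp only [z5, zc, Bool.and_eq_true, Bool.or_eq_true, decide_eq_true_eq] at h ⊢
    exact ⟨h.1, key _ h.2⟩
  | 3, h =>
    simp only [z5, zc, Bool.and_eq_true, Bool.or_eq_true, decide_eq_true_eq] at h ⊢
    exact ⟨h.1, h.2.1, key _ h.2.2⟩
  | n + 4, h => simp [z5] at h

/-- the sufficient condition in terms of powers of `u`, relation `j` -/
def crude5 (s : Bool) (m k u H j : ℕ) : Bool :=
  (decide (5 * rr s m k j + (m - 1) ≤ 5 * tau s m k j) &&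
      decide (L1 j * H ^ 6 < u ^ (5 * tau s m k j - (5 * rr s m k j + (m - 1))))) &&
    ((decide (5 * nu s j + 3 + 2 * (m - 1) ≤ 5 * tau s m k j) &&
      decide (L2 j * H ^ 2 < u ^ (5 * tau s m k j - (5 * nu s j + 3 + 2 * (m - 1))))) && z5 s m k u j)

theorem crude5_chk {A B T ρ μ d H Z u τ r ν n : ℕ} (hT : u ^ τ ≤ A * T) (hρ : ρ ≤ B * u ^ r) (hμ : μ = u ^ ν)
    (hd0 : 0 < d) (hd : d ≤ 2 * u) (hZ : Z ≤ 2 * u ^ n) (hA : 0 < A)
    (h1 : 5 * r + n ≤ 5 * τ) (h2 : 406 * (A * B * 2) ^ 5 * H ^ 6 < u ^ (5 * τ - (5 * r + n)))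
    (h3 : 5 * ν + 3 + 2 * n ≤ 5 * τ) (h4 : 41209 * (32 * (A * 2) ^ 5) * H ^ 2 < u ^ (5 * τ - (5 * ν + 3 + 2 * n))) :
    chk5 2 T ρ μ d H Z = true := by
  have hT7 : u ^ (5 * τ) ≤ A ^ 5 * T ^ 5 := by
    calc u ^ (5 * τ) = (u ^ τ) ^ 5 := by rw [← pow_mul]; congr 1; ring
      _ ≤ (A * T) ^ 5 := Nat.pow_le_pow_left hT 5
      _ = _ := by ring
  have hu : 0 < u := by omega
  rw [chk5, Bool.and_eq_true, decide_eq_true_eq, decide_eq_true_eq]
  constructor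
  · refine lt_of_mul_lt_mul_left ?_ (Nat.zero_le (A ^ 5))
    calc A ^ 5 * ((2 * (H * ρ)) ^ 5 * (203 * (H * Z)))
        ≤ A ^ 5 * ((2 * (H * (B * u ^ r))) ^ 5 * (203 * (H * (2 * u ^ n)))) := by gcongr
      _ = 406 * (A * B * 2) ^ 5 * H ^ 6 * u ^ (5 * r + n) := by ring
      _ < u ^ (5 * τ - (5 * r + n)) * u ^ (5 * r + n) := Nat.mul_lt_mul_of_pos_right h2 (Nat.pow_pos hu)
      _ = u ^ (5 * τ) := by rw [← pow_add]; congr 1; omega
      _ ≤ A ^ 5 * T ^ 5 := hT7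
      _ ≤ A ^ 5 * (((2 - 1) * T) ^ 5 * d) := by
        have : 1 ≤ d := hd0
        rw [show 2 - 1 = 1 from rfl, one_mul]
        nlinarith [Nat.zero_le (A ^ 5 * T ^ 5)]
  · refine lt_of_mul_lt_mul_left ?_ (Nat.zero_le (A ^ 5))
    calc A ^ 5 * ((2 * (μ * d)) ^ 5 * (203 ^ 2 * (H * Z) ^ 2))
        = A ^ 5 * (2 ^ 5 * μ ^ 5 * d ^ 3 * (203 ^ 2 * (H * Z) ^ 2)) * d ^ 2 := by ring
      _ ≤ A ^ 5 * (2 ^ 5 * μ ^ 5 * (2 * u) ^ 3 * (203 ^ 2 * (H * (2 * u ^ n)) ^ 2)) * d ^ 2 := by gcongr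
      _ = 41209 * (32 * (A * 2) ^ 5) * H ^ 2 * u ^ (5 * ν + 3 + 2 * n) * d ^ 2 := by rw [hμ]; ring
      _ < u ^ (5 * τ - (5 * ν + 3 + 2 * n)) * u ^ (5 * ν + 3 + 2 * n) * d ^ 2 :=
        Nat.mul_lt_mul_of_pos_right (Nat.mul_lt_mul_of_pos_right h4 (Nat.pow_pos hu)) (Nat.pow_pos hd0)
      _ = u ^ (5 * τ) * d ^ 2 := by rw [← pow_add]; congr 2; omega
      _ ≤ A ^ 5 * T ^ 5 * d ^ 2 := Nat.mul_le_mul_right _ hT7
      _ = _ := by ring

/-- the crude condition implies the condition of `semi5_false` -/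
theorem chk_of_crude5 {s e : Bool} {m k u d H j : ℕ} (hu : 2 ≤ u) (hk : 3 ≤ k) (hkm : k + 2 ≤ m) (hd0 : 0 < d)
    (hd : d ≤ u + 1) (h : crude5 s m k u H j = true) :
    chk5 2 (rT s e m k u j) (rR s e m k u j) (rMu s u j) d H (ZZ s e m u) = true := by
  rw [crude5] at h
  simp only [Bool.and_eq_true, decide_eq_true_eq] at h
  obtain ⟨⟨h1, h2⟩, ⟨h3, h4⟩, -⟩ := h
  refine crude5_chk (A := if j < 2 then 2 else 8) (B := if j < 2 then 2 else 4) (rT_lo hu hk hkm j)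
    (rR_hi hu hk hkm j) (rMu_eq j) hd0 (by omega) (ZZ_hi hu (by omega)) (by split_ifs <;> norm_num) h1 ?_ h3 ?_
  · refine lt_of_eq_of_lt ?_ h2
    match j with
    | 0 => simp [L1]
    | 1 => simp [L1]
    | n + 2 => simp [L1]
  · refine lt_of_eq_of_lt ?_ h4
    match j with
    | 0 => simp [L2]
    | 1 => simp [L2]
    | n + 2 => simp [L2]

variable {s e : Bool} {m k u q p H M N d : ℕ} {a b c : ℤ}

theorem NE.of_crude5 (h : NE s e m k u q p H M N d a b c)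
    (hs : q ^ 5 ≤ 48 * M) (hH : 1 ≤ H) (hex : ¬ (s = false ∧ e = true ∧ u = 2 ∧ k + 2 = m)) {j : ℕ}
    (hc : crude5 s m k u H j = true) : False := by
  have hz : zc s m k u j = true := by
    refine z5_zc h.u2 ?_
    rw [crude5] at hc
    simp only [Bool.and_eq_true] at hc
    exact hc.2.2
  exact semi5_false (by norm_num) h.q3 h.eqM hs (h.bd j (zc_rZ h.u2 h.k3 h.km h.d_le' hH hex hz))
    (chk_of_crude5 h.u2 h.k3 h.km h.d_pos h.d_le' hc)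

/-! ### the refined inequality, `u ≥ 16`, relations `0`, `1` -/

theorem AA_lo16 {e : Bool} {n u : ℕ} (hu : 16 ≤ u) (hn : 1 ≤ n) : 15 * u ^ n ≤ 17 * AA e n u := by
  have h1 := le_AA (e := e) (n := n) (u := u)
  have h2 : u ≤ u ^ n := Nat.le_self_pow (by omega) u
  omega

theorem AA_hi16 {e : Bool} {n u : ℕ} (hu : 16 ≤ u) (hn : 1 ≤ n) : 15 * AA e n u ≤ 16 * u ^ n := by
  have h1 := AA_le (e := e) (n := n) (u := u)
  have h2 : u ≤ u ^ n := Nat.le_self_pow (by omega) u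
  omega

theorem YY_lo16 {e : Bool} {n u : ℕ} (hu : 16 ≤ u) (hn : 1 ≤ n) : 15 * u ^ (n - 1) ≤ 17 * YY e n u := by
  obtain ⟨j, rfl⟩ : ∃ j, n = j + 1 := ⟨n - 1, by omega⟩
  rw [Nat.add_sub_cancel]
  have hA := AA_pos (e := e) (show 2 ≤ u by omega) (le_refl 1)
  refine Nat.le_of_mul_le_mul_right ?_ hA
  rw [mul_assoc 17, YY_mul (by omega)]
  have h1 := le_AA (e := e) (n := j + 1) (u := u)
  have h2 := AA1_le (e := e) (u := u)
  obtain ⟨x, hx⟩ : ∃ x, x = u ^ j := ⟨_, rfl⟩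
  have hp : u ^ (j + 1) = x * u := by rw [hx, pow_succ]
  have hx1 : 1 ≤ x := by rw [hx]; exact Nat.one_le_pow _ _ (by omega)
  rw [hp] at h1
  rw [← hx]
  have h3 : 15 * x * AA e 1 u ≤ 15 * x * (u + 1) := Nat.mul_le_mul_left _ h2
  nlinarith

theorem YY_hi16 {e : Bool} {n u : ℕ} (hu : 16 ≤ u) (hn : 1 ≤ n) : 15 * YY e n u ≤ 16 * u ^ (n - 1) := by
  obtain ⟨j, rfl⟩ : ∃ j, n = j + 1 := ⟨n - 1, by omega⟩
  rw [Nat.add_sub_cancel]
  have hA := AA_pos (e := e) (show 2 ≤ u by omega) (le_refl 1)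
  refine Nat.le_of_mul_le_mul_right ?_ hA
  rw [mul_assoc 15, YY_mul (by omega)]
  obtain ⟨x, hx⟩ : ∃ x, x = u ^ j := ⟨_, rfl⟩
  have hp : u ^ (j + 1) = x * u := by rw [hx, pow_succ]
  have hx1 : 1 ≤ x := by rw [hx]; exact Nat.one_le_pow _ _ (by omega)
  rw [← hx]
  cases e with
  | true =>
    rw [AA_true, AA_true, hp, pow_one]
    obtain ⟨r, rfl⟩ : ∃ r, u = r + 1 := ⟨u - 1, by omega⟩
    rw [Nat.add_sub_cancel]
    have h1 : x * (r + 1) = x * r + x := by ring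
    have h2 : 15 * x ≤ x * r := by nlinarith
    have h3 : 16 * x * r = 16 * (x * r) := by ring
    omega
  | false =>
    rw [AA_false_odd (n := 1) rfl, pow_one]
    have h1 := AA_le (e := false) (n := j + 1) (u := u)
    rw [hp] at h1
    nlinarith

def crude16 (s : Bool) (m k u H j : ℕ) : Bool :=
  (decide (16 ≤ u) && decide (j < 2)) &&
  ((decide (5 * rr s m k j + (m - 1) ≤ 5 * tau s m k j) &&
      decide (800 * H ^ 6 < u ^ (5 * tau s m k j - (5 * rr s m k j + (m - 1))))) &&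
    (decide (3 + 2 * (m - 1) ≤ 5 * tau s m k j) &&
      decide (12 * 10 ^ 10 * H ^ 2 < u ^ (5 * tau s m k j - (3 + 2 * (m - 1))))))

theorem crude16_chk {T ρ d H Z u τ r n : ℕ} (hT : 15 * u ^ τ ≤ 17 * T) (hρ : 15 * ρ ≤ 16 * u ^ r)
    (hu : 16 ≤ u) (hd0 : 0 < d) (hd : d ≤ u + 1) (hZ : 15 * Z ≤ 16 * u ^ n)
    (h1 : 5 * r + n ≤ 5 * τ) (h2 : 800 * H ^ 6 < u ^ (5 * τ - (5 * r + n)))
    (h3 : 3 + 2 * n ≤ 5 * τ) (h4 : 12 * 10 ^ 10 * H ^ 2 < u ^ (5 * τ - (3 + 2 * n))) :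
    chk5 16 T ρ 1 d H Z = true := by
  have hT5 : 15 ^ 5 * u ^ (5 * τ) ≤ 17 ^ 5 * T ^ 5 := by
    calc 15 ^ 5 * u ^ (5 * τ) = (15 * u ^ τ) ^ 5 := by rw [mul_pow, ← pow_mul]; congr 2; ring
      _ ≤ (17 * T) ^ 5 := Nat.pow_le_pow_left hT 5
      _ = _ := by ring
  have hu0 : 0 < u := by omega
  rw [chk5, Bool.and_eq_true, decide_eq_true_eq, decide_eq_true_eq]
  constructor
  · refine lt_of_mul_lt_mul_left ?_ (Nat.zero_le (17 ^ 5 * 15 ^ 6))
    calc 17 ^ 5 * 15 ^ 6 * ((16 * (H * ρ)) ^ 5 * (203 * (H * Z)))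
        = 17 ^ 5 * ((16 * (H * (15 * ρ))) ^ 5 * (203 * (H * (15 * Z)))) := by ring
      _ ≤ 17 ^ 5 * ((16 * (H * (16 * u ^ r))) ^ 5 * (203 * (H * (16 * u ^ n)))) := by gcongr
      _ = 17 ^ 5 * 256 ^ 5 * 3248 * H ^ 6 * u ^ (5 * r + n) := by ring
      _ ≤ 15 ^ 6 * 225 ^ 5 * (800 * H ^ 6) * u ^ (5 * r + n) := by
        refine Nat.mul_le_mul_right _ ?_
        rw [← mul_assoc]
        exact Nat.mul_le_mul_right _ (by norm_num)
      _ < 15 ^ 6 * 225 ^ 5 * u ^ (5 * τ - (5 * r + n)) * u ^ (5 * r + n) :=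
        Nat.mul_lt_mul_of_pos_right (Nat.mul_lt_mul_of_pos_left h2 (by norm_num)) (Nat.pow_pos hu0)
      _ = 15 ^ 6 * 15 ^ 5 * (15 ^ 5 * u ^ (5 * τ)) := by
        rw [mul_assoc (15 ^ 6 * 225 ^ 5), ← pow_add, Nat.sub_add_cancel h1]
        ring
      _ ≤ 15 ^ 6 * 15 ^ 5 * (17 ^ 5 * T ^ 5) := Nat.mul_le_mul_left _ hT5
      _ = 17 ^ 5 * 15 ^ 6 * (((16 - 1) * T) ^ 5 * 1) := by
        rw [show 16 - 1 = 15 from rfl]; ring
      _ ≤ 17 ^ 5 * 15 ^ 6 * (((16 - 1) * T) ^ 5 * d) :=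
        Nat.mul_le_mul_left _ (Nat.mul_le_mul_left _ hd0)
  · have hd' : 16 * d ≤ 17 * u := by omega
    refine lt_of_mul_lt_mul_left ?_ (Nat.zero_le (17 ^ 5 * 225))
    calc 17 ^ 5 * 225 * ((16 * (1 * d)) ^ 5 * (203 ^ 2 * (H * Z) ^ 2))
        = 17 ^ 5 * (256 * (16 * d) ^ 3 * (203 ^ 2 * (H * (15 * Z)) ^ 2)) * d ^ 2 := by ring
      _ ≤ 17 ^ 5 * (256 * (17 * u) ^ 3 * (203 ^ 2 * (H * (16 * u ^ n)) ^ 2)) * d ^ 2 := by gcongr
      _ = 17 ^ 5 * 256 * 17 ^ 3 * 203 ^ 2 * 256 * H ^ 2 * u ^ (3 + 2 * n) * d ^ 2 := by ring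
      _ ≤ 225 * 15 ^ 5 * (12 * 10 ^ 10 * H ^ 2) * u ^ (3 + 2 * n) * d ^ 2 := by
        refine Nat.mul_le_mul_right _ (Nat.mul_le_mul_right _ ?_)
        rw [← mul_assoc]
        exact Nat.mul_le_mul_right _ (by norm_num)
      _ < 225 * 15 ^ 5 * u ^ (5 * τ - (3 + 2 * n)) * u ^ (3 + 2 * n) * d ^ 2 :=
        Nat.mul_lt_mul_of_pos_right (Nat.mul_lt_mul_of_pos_right
          (Nat.mul_lt_mul_of_pos_left h4 (by norm_num)) (Nat.pow_pos hu0)) (Nat.pow_pos hd0)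
      _ = 225 * (15 ^ 5 * u ^ (5 * τ)) * d ^ 2 := by
        rw [mul_assoc (225 * 15 ^ 5), ← pow_add, Nat.sub_add_cancel h3]
        ring
      _ ≤ 225 * (17 ^ 5 * T ^ 5) * d ^ 2 := Nat.mul_le_mul_right _ (Nat.mul_le_mul_left _ hT5)
      _ = _ := by ring

theorem NE.of_crude16 (h : NE s e m k u q p H M N d a b c)
    (hs : q ^ 5 ≤ 48 * M) (hex : ¬ (s = false ∧ e = true ∧ u = 2 ∧ k + 2 = m)) {j : ℕ}
    (hc : crude16 s m k u H j = true) : False := by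
  have hk := h.k3
  have hkm := h.km
  rw [crude16] at hc
  simp only [Bool.and_eq_true, decide_eq_true_eq] at hc
  obtain ⟨⟨hu, hj⟩, ⟨h1, h2⟩, h3, h4⟩ := hc
  have hZ : 15 * ZZ s e m u ≤ 16 * u ^ (m - 1) := by
    unfold ZZ
    split_ifs
    · exact YY_hi16 hu (by omega)
    · exact AA_hi16 hu (by omega)
  have hT : 15 * u ^ tau s m k j ≤ 17 * rT s e m k u j := by
    match j, hj with
    | 0, _ =>
      cases s with
      | true => exact YY_lo16 (n := k) hu (by omega)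
      | false => exact AA_lo16 (n := k) hu (by omega)
    | 1, _ => exact YY_lo16 (n := m - k) hu (by omega)
  have hR : 15 * rR s e m k u j ≤ 16 * u ^ rr s m k j := by
    match j, hj with
    | 0, _ =>
      cases s with
      | true => exact YY_hi16 (n := m - k) hu (by omega)
      | false =>
        have h1 := AA_hi16 (e := e) (n := m - 1 - k) hu (by omega)
        change 15 * AA e (m - 1 - k) u ≤ 16 * u ^ (m - k - 1)
        rwa [show m - k - 1 = m - 1 - k by omega]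
    | 1, _ =>
      cases s with
      | true => exact YY_hi16 (n := k) hu (by omega)
      | false => exact AA_hi16 (n := k - 1) hu (by omega)
  have hmu : rMu s u j = 1 := by
    match j, hj with
    | 0, _ => rfl
    | 1, _ => rfl
  have hz : rZ s e m k u d H j = true := by
    match j, hj with
    | 0, _ =>
      cases s with
      | true => rfl
      | false =>
        have : u ≠ 2 := by omega
        simp [rZ, this]
    | 1, _ => rfl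
  have h5 := h.bd j hz
  rw [hmu] at h5
  exact semi5_false (by norm_num) h.q3 h.eqM hs h5 (crude16_chk hT hR hu h.d_pos h.d_le' hZ h1 h2 h3 h4)

/-! ### the least common multiple -/

def crudeL (m k u H : ℕ) : Bool :=
  decide (1 + Nat.gcd k (m - k) + Nat.gcd k (m - k - 1) ≤ m - k) &&
    decide (512 * H < u ^ (m - k - (1 + Nat.gcd k (m - k) + Nat.gcd k (m - k - 1))))

theorem bigL_lo {e : Bool} {m k u : ℕ} (hu : 2 ≤ u) (hk : 3 ≤ k) (hkm : k + 2 ≤ m) :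
    u ^ (m + (m - k) - 1) ≤ 64 * bigL e m k u * u ^ (Nat.gcd k (m - k) + Nat.gcd k (m - k - 1) + 1) := by
  have ha := AA_lo (e := e) (n := k) hu (by omega)
  have hb := AA_lo (e := e) (n := m - k) hu (by omega)
  have hc := AA_lo (e := e) (n := m - k - 1) hu (by omega)
  obtain ⟨A, hA⟩ : ∃ A, A = AA e k u := ⟨_, rfl⟩
  obtain ⟨B, hB⟩ : ∃ B, B = AA e (m - k) u := ⟨_, rfl⟩
  obtain ⟨C, hC⟩ : ∃ C, C = AA e (m - k - 1) u := ⟨_, rfl⟩
  have hA0 : 0 < A := by rw [hA]; exact AA_pos hu (by omega)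
  have hB0 : 0 < B := by rw [hB]; exact AA_pos hu (by omega)
  have hC0 : 0 < C := by rw [hC]; exact AA_pos hu (by omega)
  have g1 : Nat.gcd A B ≤ 2 * u ^ Nat.gcd k (m - k) := by
    rw [hA, hB]
    exact (Nat.le_of_dvd (AA_pos hu (Nat.gcd_pos_of_pos_left _ (by omega))) (gcd_AA hu)).trans (AA_hi hu)
  have g2 : Nat.gcd A C ≤ 2 * u ^ Nat.gcd k (m - k - 1) := by
    rw [hA, hC]
    exact (Nat.le_of_dvd (AA_pos hu (Nat.gcd_pos_of_pos_left _ (by omega))) (gcd_AA hu)).trans (AA_hi hu)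
  have g3 : Nat.gcd B C ≤ 2 * u := by
    rw [hB, hC]
    have h1 := Nat.le_of_dvd (AA_pos hu (Nat.gcd_pos_of_pos_left _ (by omega))) (gcd_AA (e := e) (k := m - k)
      (n := m - k - 1) hu)
    have h2 : Nat.gcd (m - k) (m - k - 1) = 1 := by
      have h3 := Nat.dvd_sub (Nat.gcd_dvd_left (m - k) (m - k - 1)) (Nat.gcd_dvd_right (m - k) (m - k - 1))
      rw [show m - k - (m - k - 1) = 1 by omega] at h3
      exact Nat.dvd_one.1 h3
    rw [h2] at h1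
    exact h1.trans ((AA_hi hu).trans (by rw [pow_one]))
  have hL0 : Nat.lcm A B ∣ bigL e m k u := by rw [hA, hB]; exact dvd_foldr _
  have hLC : C ∣ bigL e m k u := by
    rw [hC]
    have := dvd_foldr_mem (e := e) (u := u) (x0 := Nat.lcm (AA e k u) (AA e (m - k) u)) (List.range (m - 1 - k))
      (m - k - 2) (List.mem_range.2 (by omega))
    rwa [show m - k - 2 + 1 = m - k - 1 by omega] at this
  have hLpos : 0 < bigL e m k u := by
    unfold bigL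
    have : ∀ L : List ℕ, 0 < L.foldr (fun i x => Nat.lcm (AA e (i + 1) u) x) (Nat.lcm (AA e k u) (AA e (m - k) u)) := by
      intro L
      induction L with
      | nil => exact Nat.lcm_pos (AA_pos hu (by omega)) (AA_pos hu (by omega))
      | cons i L ih => exact Nat.lcm_pos (AA_pos hu (by omega)) ih
    exact this _
  have hL3 : Nat.lcm (Nat.lcm A B) C ≤ bigL e m k u := Nat.le_of_dvd hLpos (Nat.lcm_dvd hL0 hLC)
  have e1 : A * B * C ≤ bigL e m k u * (2 * u ^ Nat.gcd k (m - k)) * ((2 * u ^ Nat.gcd k (m - k - 1)) * (2 * u)) := by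
    have h1 : A * B * C = Nat.gcd A B * (Nat.gcd (Nat.lcm A B) C * Nat.lcm (Nat.lcm A B) C) := by
      rw [Nat.gcd_mul_lcm, ← mul_assoc, Nat.gcd_mul_lcm]
    have h2 : Nat.gcd (Nat.lcm A B) C ≤ Nat.gcd A C * Nat.gcd B C := by
      refine Nat.le_of_dvd (Nat.mul_pos (Nat.gcd_pos_of_pos_left _ hA0) (Nat.gcd_pos_of_pos_left _ hB0)) ?_
      refine (Nat.gcd_dvd_gcd_of_dvd_left _ (Nat.lcm_dvd_mul A B)).trans ?_
      exact Nat.gcd_mul_left_dvd_mul_gcd C A B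
    rw [h1]
    calc Nat.gcd A B * (Nat.gcd (Nat.lcm A B) C * Nat.lcm (Nat.lcm A B) C)
        ≤ (2 * u ^ Nat.gcd k (m - k)) * (((2 * u ^ Nat.gcd k (m - k - 1)) * (2 * u)) * bigL e m k u) :=
          Nat.mul_le_mul g1 (Nat.mul_le_mul (h2.trans (Nat.mul_le_mul g2 g3)) hL3)
      _ = _ := by ring
  rw [← hA] at ha
  rw [← hB] at hb
  rw [← hC] at hc
  calc u ^ (m + (m - k) - 1) = u ^ k * u ^ (m - k) * u ^ (m - k - 1) := by
        rw [← pow_add, ← pow_add]; congr 1; omega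
    _ ≤ (2 * A) * (2 * B) * (2 * C) := Nat.mul_le_mul (Nat.mul_le_mul ha hb) hc
    _ = 8 * (A * B * C) := by ring
    _ ≤ 8 * (bigL e m k u * (2 * u ^ Nat.gcd k (m - k)) * ((2 * u ^ Nat.gcd k (m - k - 1)) * (2 * u))) :=
      Nat.mul_le_mul_left _ e1
    _ = _ := by ring

theorem NE.of_crudeL (h : NE s e m k u q p H M N d a b c) (hs : q ^ 5 ≤ 48 * M)
    (hc : crudeL m k u H = true) : False := by
  have hk := h.k3
  have hkm := h.km
  have hu := h.u2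
  rw [crudeL, Bool.and_eq_true, decide_eq_true_eq, decide_eq_true_eq] at hc
  obtain ⟨h1, h2⟩ := hc
  obtain ⟨g, hg⟩ : ∃ g, g = 1 + Nat.gcd k (m - k) + Nat.gcd k (m - k - 1) := ⟨_, rfl⟩
  have h3 := bigL_lo (e := e) hu hk hkm
  have h4 := h.bigL_le hs
  have h5 := ZZ_hi (s := s) (e := e) (m := m) hu (by omega)
  rw [show Nat.gcd k (m - k) + Nat.gcd k (m - k - 1) + 1 = g by omega] at h3
  rw [← hg] at h1 h2
  have h6 : u ^ (m + (m - k) - 1) ≤ 512 * H * (u ^ (m - 1) * u ^ g) := by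
    calc u ^ (m + (m - k) - 1) ≤ 64 * bigL e m k u * u ^ g := h3
      _ ≤ 64 * (4 * (H * (2 * u ^ (m - 1)))) * u ^ g :=
        Nat.mul_le_mul_right _ (Nat.mul_le_mul_left _ (h4.trans (Nat.mul_le_mul_left _ (Nat.mul_le_mul_left _ h5))))
      _ = _ := by ring
  have h7 : 512 * H * (u ^ (m - 1) * u ^ g) < u ^ (m - k - g) * (u ^ (m - 1) * u ^ g) :=
    Nat.mul_lt_mul_of_pos_right h2 (Nat.mul_pos (Nat.pow_pos (by omega)) (Nat.pow_pos (by omega)))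
  have h8 : u ^ (m - k - g) * (u ^ (m - 1) * u ^ g) = u ^ (m + (m - k) - 1) := by
    rw [← pow_add, ← pow_add]; congr 1; omega
  omega

end Cfsg.Agent.R2.Spec.NA5
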