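import Cfsg.Agent.R2.Spec.NA5.Crude5

/-!
# S3435, packet NON-A, `dimL t ≥ 5` (helper3): two more crude conditions

* `crude7` : relations `0`, `1`, `u ≥ 16`, `d ≤ m`;
* `crude8` : relation `2`, `i' = m`, `gcd (k, m - k) = 1`, `u ≥ 16`, `d ≤ m`.
-/

set_option autoImplicit false

namespace Cfsg.Agent.R2.Spec.NA5

open Cfsg.Agent.R2.Spec.NA
open Cfsg.Agent.H403.NumTop hiding nu

variable {s e : Bool} {m k u q p H M N d : ℕ} {a b c : ℤ}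

def crude7 (s : Bool) (m k u H j : ℕ) : Bool :=
  (decide (16 ≤ u) && decide (j < 2)) &&
  ((decide (5 * rr s m k j + (m - 1) ≤ 5 * tau s m k j) &&
      decide (800 * H ^ 6 < u ^ (5 * tau s m k j - (5 * rr s m k j + (m - 1))))) &&
    (decide (2 * (m - 1) ≤ 5 * tau s m k j) &&
      decide (92 * 10 ^ 9 * m ^ 3 * H ^ 2 < u ^ (5 * tau s m k j - (2 * (m - 1))))))

theorem crude7_chk {T ρ d H Z u τ r n m : ℕ} (hT : 15 * u ^ τ ≤ 17 * T) (hρ : 15 * ρ ≤ 16 * u ^ r)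
    (hu : 16 ≤ u) (hd0 : 0 < d) (hd : d ≤ m) (hZ : 15 * Z ≤ 16 * u ^ n)
    (h1 : 5 * r + n ≤ 5 * τ) (h2 : 800 * H ^ 6 < u ^ (5 * τ - (5 * r + n)))
    (h3 : 2 * n ≤ 5 * τ) (h4 : 92 * 10 ^ 9 * m ^ 3 * H ^ 2 < u ^ (5 * τ - (2 * n))) :
    chk5 16 T ρ 1 d H Z = true := by
  have hT5 : 15 ^ 5 * u ^ (5 * τ) ≤ 17 ^ 5 * T ^ 5 := by
    calc 15 ^ 5 * u ^ (5 * τ) = (15 * u ^ τ) ^ 5 := by rw [mul_pow, ← pow_mul]; congr 2; ring
      _ ≤ (17 * T) ^ 5 := Nat.pow_le_pow_left hT 5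
      _ = _ := by ring
  have hu0 : 0 < u := by omega
  rw [chk5, Bool.and_eq_true, decide_eq_true_eq, decide_eq_true_eq]
  constructor
  · refine lt_of_mul_lt_mul_left ?_ (Nat.zero_le (17 ^ 5 * 15 ^ 6))
    calc 17 ^ 5 * 15 ^ 6 * ((16 * (H * ρ)) ^ 5 * (203 * (H * Z)))
        = 17 ^ 5 * ((16 * (H * (15 * ρ))) ^ 5 * (203 * (H * (15 * Z)))) := by ring
      _ ≤ 17 ^ 5 * ((16 * (H * (16 * u ^ r))) ^ 5 * (203 * (H * (16 * u ^ n)))) := by gcongr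
      _ = 17 ^ 5 * 256 ^ 5 * 3248 * H ^ 6 * u ^ (5 * r + n) := by ring
      _ ≤ 15 ^ 6 * 225 ^ 5 * (800 * H ^ 6) * u ^ (5 * r + n) := by
        refine Nat.mul_le_mul_right _ ?_
        rw [← mul_assoc]
        exact Nat.mul_le_mul_right _ (by norm_num)
      _ < 15 ^ 6 * 225 ^ 5 * u ^ (5 * τ - (5 * r + n)) * u ^ (5 * r + n) :=
        Nat.mul_lt_mul_of_pos_right (Nat.mul_lt_mul_of_pos_left h2 (by norm_num)) (Nat.pow_pos hu0)
      _ = 15 ^ 6 * 15 ^ 5 * (15 ^ 5 * u ^ (5 * τ)) := by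
        rw [mul_assoc (15 ^ 6 * 225 ^ 5), ← pow_add, Nat.sub_add_cancel h1]
        ring
      _ ≤ 15 ^ 6 * 15 ^ 5 * (17 ^ 5 * T ^ 5) := Nat.mul_le_mul_left _ hT5
      _ = 17 ^ 5 * 15 ^ 6 * (((16 - 1) * T) ^ 5 * 1) := by
        rw [show 16 - 1 = 15 from rfl]; ring
      _ ≤ 17 ^ 5 * 15 ^ 6 * (((16 - 1) * T) ^ 5 * d) :=
        Nat.mul_le_mul_left _ (Nat.mul_le_mul_left _ hd0)
  · refine lt_of_mul_lt_mul_left ?_ (Nat.zero_le (17 ^ 5 * 225))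
    calc 17 ^ 5 * 225 * ((16 * (1 * d)) ^ 5 * (203 ^ 2 * (H * Z) ^ 2))
        = 17 ^ 5 * (16 ^ 5 * d ^ 3 * (203 ^ 2 * (H * (15 * Z)) ^ 2)) * d ^ 2 := by ring
      _ ≤ 17 ^ 5 * (16 ^ 5 * m ^ 3 * (203 ^ 2 * (H * (16 * u ^ n)) ^ 2)) * d ^ 2 := by gcongr
      _ = 17 ^ 5 * 16 ^ 5 * 203 ^ 2 * 256 * (m ^ 3 * H ^ 2) * u ^ (2 * n) * d ^ 2 := by ring
      _ ≤ 225 * 15 ^ 5 * (92 * 10 ^ 9) * (m ^ 3 * H ^ 2) * u ^ (2 * n) * d ^ 2 := by
        refine Nat.mul_le_mul_right _ (Nat.mul_le_mul_right _ (Nat.mul_le_mul_right _ ?_))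
        norm_num
      _ = 225 * 15 ^ 5 * (92 * 10 ^ 9 * m ^ 3 * H ^ 2) * u ^ (2 * n) * d ^ 2 := by ring
      _ < 225 * 15 ^ 5 * u ^ (5 * τ - (2 * n)) * u ^ (2 * n) * d ^ 2 :=
        Nat.mul_lt_mul_of_pos_right (Nat.mul_lt_mul_of_pos_right
          (Nat.mul_lt_mul_of_pos_left h4 (by norm_num)) (Nat.pow_pos hu0)) (Nat.pow_pos hd0)
      _ = 225 * (15 ^ 5 * u ^ (5 * τ)) * d ^ 2 := by
        rw [mul_assoc (225 * 15 ^ 5), ← pow_add, Nat.sub_add_cancel h3]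
        ring
      _ ≤ 225 * (17 ^ 5 * T ^ 5) * d ^ 2 := Nat.mul_le_mul_right _ (Nat.mul_le_mul_left _ hT5)
      _ = _ := by ring

theorem NE.of_crude7 (h : NE s e m k u q p H M N d a b c) (hdm : d ≤ m)
    (hs : q ^ 5 ≤ 48 * M) {j : ℕ} (hc : crude7 s m k u H j = true) : False := by
  have hk := h.k3
  have hkm := h.km
  rw [crude7] at hc
  simp only [Bool.and_eq_true, decide_eq_true_eq] at hc
  obtain ⟨⟨hu, hj⟩, ⟨h1, h2⟩, h3, h4⟩ := hc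
  have hZ : 15 * ZZ s e m u ≤ 16 * u ^ (m - 1) := by
    unfold ZZ
    split_ifs
    · exact YY_hi16 hu (by omega)
    · exact AA_hi16 hu (by omega)
  have hT : 15 * u ^ tau s m k j ≤ 17 * rT s e m k u j := by
    match j, hj with
    | 0, _ =>
      cases s with
      | true => exact YY_lo16 (n := k) hu (by omega)
      | false => exact AA_lo16 (n := k) hu (by omega)
    | 1, _ => exact YY_lo16 (n := m - k) hu (by omega)
  have hR : 15 * rR s e m k u j ≤ 16 * u ^ rr s m k j := by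
    match j, hj with
    | 0, _ =>
      cases s with
      | true => exact YY_hi16 (n := m - k) hu (by omega)
      | false =>
        have h1 := AA_hi16 (e := e) (n := m - 1 - k) hu (by omega)
        change 15 * AA e (m - 1 - k) u ≤ 16 * u ^ (m - k - 1)
        rwa [show m - k - 1 = m - 1 - k by omega]
    | 1, _ =>
      cases s with
      | true => exact YY_hi16 (n := k) hu (by omega)
      | false => exact AA_hi16 (n := k - 1) hu (by omega)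
  have hmu : rMu s u j = 1 := by
    match j, hj with
    | 0, _ => rfl
    | 1, _ => rfl
  have hz : rZ s e m k u d H j = true := by
    match j, hj with
    | 0, _ =>
      cases s with
      | true => rfl
      | false =>
        have : u ≠ 2 := by omega
        simp [rZ, this]
    | 1, _ => rfl
  have h5 := h.bd j hz
  rw [hmu] at h5
  exact semi5_false (by norm_num) h.q3 h.eqM hs h5 (crude7_chk hT hR hu h.d_pos hdm hZ h1 h2 h3 h4)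

/-- `gcd (y - 1, 1 + y + ... + y^(n-1))` divides `n` -/
theorem gcd_AA1_YY {e : Bool} {n u : ℕ} (hu : 2 ≤ u) : Nat.gcd (AA e 1 u) (YY e n u) ∣ n := by
  have h1 : ((Nat.gcd (AA e 1 u) (YY e n u) : ℕ) : ℤ) ∣ xv e u - 1 := by
    rw [Int.natCast_dvd]
    have := AA_natAbs (e := e) (n := 1) (show 1 ≤ u by omega)
    rw [pow_one] at this
    rw [this]
    exact Nat.gcd_dvd_left _ _
  have h2 : ((Nat.gcd (AA e 1 u) (YY e n u) : ℕ) : ℤ) ∣ Yz e n u := by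
    rw [Int.natCast_dvd, Yz_natAbs hu]
    exact Nat.gcd_dvd_right _ _
  have h3 : xv e u - 1 ∣ Yz e n u - n := by
    have h4 : Yz e n u - n = ∑ i ∈ Finset.range n, (xv e u ^ i - 1) := by
      rw [Finset.sum_sub_distrib]
      simp [Yz]
    rw [h4]
    exact Finset.dvd_sum fun i _ => sub_one_dvd_pow_sub_one _ i
  have h5 : ((Nat.gcd (AA e 1 u) (YY e n u) : ℕ) : ℤ) ∣ (n : ℤ) := by
    have := dvd_sub h2 (h1.trans h3)
    rwa [sub_sub_cancel] at this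
  exact_mod_cast h5

def crude8 (s : Bool) (m k u H : ℕ) : Bool :=
  ((s && decide (Nat.gcd k (m - k) = 1)) && (decide (16 ≤ u) && decide (k ≠ m - k))) &&
  ((decide (5 * (max k (m - k) - 1) + (m - 1) ≤ 5 * (m - 1)) &&
      decide (45500 * (m - k) ^ 5 * H ^ 6 < u ^ (5 * (m - 1) - (5 * (max k (m - k) - 1) + (m - 1))))) &&
      decide (32 * 41209 * 4 * (m - k) ^ 5 * m ^ 3 * H ^ 2 < u ^ (5 * (m - 1) - (2 * (m - 1)))))

theorem NE.of_crude8 (h : NE s e m k u q p H M N d a b c) (hdm : d ≤ m) (hH : 1 ≤ H)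
    (hs : q ^ 5 ≤ 48 * M) (hc : crude8 s m k u H = true) : False := by
  have hk := h.k3
  have hkm := h.km
  rw [crude8] at hc
  simp only [Bool.and_eq_true, decide_eq_true_eq] at hc
  obtain ⟨⟨⟨rfl, hg⟩, hu, hne⟩, ⟨h1, h2⟩, h4⟩ := hc
  have hu2 := h.u2
  have hZ : 15 * ZZ true e m u ≤ 16 * u ^ (m - 1) := YY_hi16 (n := m) hu (by omega)
  -- `T`
  have hT : 225 * u ^ (m - 1) ≤ 289 * ((m - k) * Nat.lcm (AA e k u) (YY e (m - k) u)) := by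
    have g1 : Nat.gcd (AA e k u) (YY e (m - k) u) ≤ m - k := by
      refine Nat.le_of_dvd (by omega) ((Nat.dvd_gcd ?_ (Nat.gcd_dvd_right _ _)).trans (gcd_AA1_YY (e := e) (u := u) hu2))
      have := (Nat.gcd_dvd_gcd_of_dvd_right (AA e k u) (YY_dvd (e := e) (n := m - k) hu2)).trans (gcd_AA hu2)
      rwa [hg] at this
    have g2 : AA e k u * YY e (m - k) u ≤ (m - k) * Nat.lcm (AA e k u) (YY e (m - k) u) := by
      rw [← Nat.gcd_mul_lcm (AA e k u) (YY e (m - k) u)]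
      exact Nat.mul_le_mul_right _ g1
    have ha := AA_lo16 (e := e) (n := k) hu (by omega)
    have hb := YY_lo16 (e := e) (n := m - k) hu (by omega)
    calc 225 * u ^ (m - 1) = (15 * u ^ k) * (15 * u ^ (m - k - 1)) := by
          rw [show m - 1 = k + (m - k - 1) by omega, pow_add]; ring
      _ ≤ (17 * AA e k u) * (17 * YY e (m - k) u) := Nat.mul_le_mul ha hb
      _ = 289 * (AA e k u * YY e (m - k) u) := by ring
      _ ≤ _ := Nat.mul_le_mul_left _ g2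
  -- `ρ`
  have hR : 15 * (YY e k u + YY e (m - k) u) ≤ 17 * u ^ (max k (m - k) - 1) := by
    have ha := YY_hi16 (e := e) (n := k) hu (by omega)
    have hb := YY_hi16 (e := e) (n := m - k) hu (by omega)
    rcases Nat.lt_or_ge k (m - k) with h5 | h5
    · rw [max_eq_right h5.le]
      have h6 : u ^ (k - 1) * u ≤ u ^ (m - k - 1) := by
        rw [← pow_succ]; exact Nat.pow_le_pow_right (by omega) (by omega)
      have h7 : u ^ (k - 1) * 16 ≤ u ^ (k - 1) * u := Nat.mul_le_mul_left _ hu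
      omega
    · rw [max_eq_left h5]
      have h6 : u ^ (m - k - 1) * u ≤ u ^ (k - 1) := by
        rw [← pow_succ]; exact Nat.pow_le_pow_right (by omega) (by omega)
      have h7 : u ^ (m - k - 1) * 16 ≤ u ^ (m - k - 1) * u := Nat.mul_le_mul_left _ hu
      omega
  have hz : rZ true e m k u d H 2 = true := by
    refine zc_rZ hu2 hk hkm h.d_le' hH (by simp) (z5_zc hu2 ?_)
    simp only [z5, Bool.and_eq_true, Bool.or_eq_true, decide_eq_true_eq]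
    exact ⟨hne, Or.inr ⟨by omega, by omega⟩⟩
  have h5 := h.bd 2 hz
  have hd0 := h.d_pos
  refine semi5_false (θ := 2) (by norm_num) h.q3 h.eqM hs h5 ?_
  change chk5 2 (Nat.lcm (AA e k u) (YY e (m - k) u)) (YY e k u + YY e (m - k) u) 1 d H (ZZ true e m u) = true
  obtain ⟨T, hTe⟩ : ∃ T, T = Nat.lcm (AA e k u) (YY e (m - k) u) := ⟨_, rfl⟩
  obtain ⟨ρ, hρe⟩ : ∃ ρ, ρ = YY e k u + YY e (m - k) u := ⟨_, rfl⟩
  obtain ⟨Z, hZe⟩ : ∃ Z, Z = ZZ true e m u := ⟨_, rfl⟩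
  obtain ⟨l, hl⟩ : ∃ l, l = m - k := ⟨_, rfl⟩
  obtain ⟨r, hr⟩ : ∃ r, r = max k (m - k) - 1 := ⟨_, rfl⟩
  obtain ⟨n, hn⟩ : ∃ n, n = m - 1 := ⟨_, rfl⟩
  rw [← hTe, ← hl, ← hn] at hT
  rw [← hρe, ← hr] at hR
  rw [← hZe, ← hn] at hZ
  rw [← hr, ← hn] at h1
  rw [← hr, ← hn, ← hl] at h2
  rw [← hl, ← hn] at h4
  rw [← hTe, ← hρe, ← hZe]
  have hl0 : 0 < l := by omega
  have hu0 : 0 < u := by omega
  have hT5 : 225 ^ 5 * u ^ (5 * n) ≤ 289 ^ 5 * (l ^ 5 * T ^ 5) := by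
    calc 225 ^ 5 * u ^ (5 * n) = (225 * u ^ n) ^ 5 := by rw [mul_pow, ← pow_mul]; congr 2; ring
      _ ≤ (289 * (l * T)) ^ 5 := Nat.pow_le_pow_left hT 5
      _ = _ := by ring
  rw [chk5, Bool.and_eq_true, decide_eq_true_eq, decide_eq_true_eq]
  constructor
  · refine lt_of_mul_lt_mul_left ?_ (Nat.zero_le (289 ^ 5 * l ^ 5 * 15 ^ 6))
    calc 289 ^ 5 * l ^ 5 * 15 ^ 6 * ((2 * (H * ρ)) ^ 5 * (203 * (H * Z)))
        = 289 ^ 5 * l ^ 5 * ((2 * (H * (15 * ρ))) ^ 5 * (203 * (H * (15 * Z)))) := by ring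
      _ ≤ 289 ^ 5 * l ^ 5 * ((2 * (H * (17 * u ^ r))) ^ 5 * (203 * (H * (16 * u ^ n)))) := by gcongr
      _ = 289 ^ 5 * 34 ^ 5 * 3248 * (l ^ 5 * H ^ 6) * u ^ (5 * r + n) := by ring
      _ ≤ 15 ^ 6 * 225 ^ 5 * 45500 * (l ^ 5 * H ^ 6) * u ^ (5 * r + n) := by
        refine Nat.mul_le_mul_right _ (Nat.mul_le_mul_right _ ?_)
        norm_num
      _ = 15 ^ 6 * 225 ^ 5 * (45500 * l ^ 5 * H ^ 6) * u ^ (5 * r + n) := by ring
      _ < 15 ^ 6 * 225 ^ 5 * u ^ (5 * n - (5 * r + n)) * u ^ (5 * r + n) :=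
        Nat.mul_lt_mul_of_pos_right (Nat.mul_lt_mul_of_pos_left h2 (by norm_num)) (Nat.pow_pos hu0)
      _ = 15 ^ 6 * (225 ^ 5 * u ^ (5 * n)) := by
        rw [mul_assoc (15 ^ 6 * 225 ^ 5), ← pow_add, Nat.sub_add_cancel h1, mul_assoc]
      _ ≤ 15 ^ 6 * (289 ^ 5 * (l ^ 5 * T ^ 5)) := Nat.mul_le_mul_left _ hT5
      _ = 289 ^ 5 * l ^ 5 * 15 ^ 6 * (((2 - 1) * T) ^ 5 * 1) := by
        rw [show 2 - 1 = 1 from rfl]; ring
      _ ≤ 289 ^ 5 * l ^ 5 * 15 ^ 6 * (((2 - 1) * T) ^ 5 * d) :=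
        Nat.mul_le_mul_left _ (Nat.mul_le_mul_left _ hd0)
  · refine lt_of_mul_lt_mul_left ?_ (Nat.zero_le (289 ^ 5 * l ^ 5 * 225))
    calc 289 ^ 5 * l ^ 5 * 225 * ((2 * (1 * d)) ^ 5 * (203 ^ 2 * (H * Z) ^ 2))
        = 289 ^ 5 * l ^ 5 * (32 * d ^ 3 * (203 ^ 2 * (H * (15 * Z)) ^ 2)) * d ^ 2 := by ring
      _ ≤ 289 ^ 5 * l ^ 5 * (32 * m ^ 3 * (203 ^ 2 * (H * (16 * u ^ n)) ^ 2)) * d ^ 2 := by gcongr
      _ = 289 ^ 5 * 32 * 203 ^ 2 * 256 * (l ^ 5 * m ^ 3 * H ^ 2) * u ^ (2 * n) * d ^ 2 := by ring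
      _ ≤ 225 ^ 6 * (32 * 41209 * 4) * (l ^ 5 * m ^ 3 * H ^ 2) * u ^ (2 * n) * d ^ 2 := by
        refine Nat.mul_le_mul_right _ (Nat.mul_le_mul_right _ (Nat.mul_le_mul_right _ ?_))
        norm_num
      _ = 225 ^ 6 * (32 * 41209 * 4 * l ^ 5 * m ^ 3 * H ^ 2) * u ^ (2 * n) * d ^ 2 := by ring
      _ < 225 ^ 6 * u ^ (5 * n - (2 * n)) * u ^ (2 * n) * d ^ 2 :=
        Nat.mul_lt_mul_of_pos_right (Nat.mul_lt_mul_of_pos_right
          (Nat.mul_lt_mul_of_pos_left h4 (by norm_num)) (Nat.pow_pos hu0)) (Nat.pow_pos hd0)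
      _ = 225 * (225 ^ 5 * u ^ (5 * n)) * d ^ 2 := by
        rw [mul_assoc (225 ^ 6), ← pow_add, Nat.sub_add_cancel (show 2 * n ≤ 5 * n by omega)]
        ring
      _ ≤ 225 * (289 ^ 5 * (l ^ 5 * T ^ 5)) * d ^ 2 := Nat.mul_le_mul_right _ (Nat.mul_le_mul_left _ hT5)
      _ = _ := by ring

end Cfsg.Agent.R2.Spec.NA5
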