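import Cfsg.Agent.R2.Spec.NA5.FinDef

/-!
# S3435, packet NON-A, `dimL t ≥ 5` (helper3): the finite check, `m ≤ 59`
-/

set_option autoImplicit false

namespace Cfsg.Agent.R2.Spec.NA5

set_option maxRecDepth 100000 in
theorem finm_five : finm 5 = true := by decide +kernel

set_option maxRecDepth 100000 in
theorem finm_six : finm 6 = true := by decide +kernel

set_option maxRecDepth 100000 in
theorem finm_seven : finm 7 = true := by decide +kernel

set_option maxRecDepth 100000 in
theorem finm_eight : finm 8 = true := by decide +kernel

set_option maxRecDepth 100000 in
theorem finm_b : ((List.range 51).all fun i => finm (i + 9)) = true := by decide +kernel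

end Cfsg.Agent.R2.Spec.NA5
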