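import Cfsg.Agent.R2.Spec.NA5.FinDef

/-!
# S3435, packet NON-A, `dimL t ≥ 5` (helper3): the finite check, `60 ≤ m < 200`
-/

set_option autoImplicit false

namespace Cfsg.Agent.R2.Spec.NA5

set_option maxRecDepth 100000 in
theorem finm_c : ((List.range 140).all fun i => finm (i + 60)) = true := by decide +kernel

end Cfsg.Agent.R2.Spec.NA5
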