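import Cfsg.Agent.R2.Spec.NA.Lvl
import Cfsg.Agent.R2.Spec.NA5.Crude7

/-!
# S3435, packet NON-A, `dimL t ≥ 5` (helper3): the levels

* `cr` : the ten crude conditions, monotone (`cr_mono`, `cr_succ`);
* `str5` : for all `u`; `str5_of_large` : `m ≥ 200`.
-/

set_option autoImplicit false

namespace Cfsg.Agent.R2.Spec.NA5

open Cfsg.Agent.R2.Spec.NA
open Cfsg.Agent.H403.NumTop hiding nu

def cr (s : Bool) (m k u H : ℕ) : ℕ → Bool
  | 0 => crude5 s m k u H 0
  | 1 => crude5 s m k u H 1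
  | 2 => crude5 s m k u H 2
  | 3 => crude5 s m k u H 3
  | 4 => crudeL m k u H
  | 5 => crude16 s m k u H 0
  | 6 => crude16 s m k u H 1
  | 7 => crude7 s m k u H 0
  | 8 => crude7 s m k u H 1
  | 9 => crude8 s m k u H
  | _ => false

theorem NE.of_cr {s e : Bool} {m k u q p H M N d : ℕ} {a b c : ℤ} (h : NE s e m k u q p H M N d a b c)
    (hdm : d ≤ m) (hs : q ^ 5 ≤ 48 * M) (hH : 1 ≤ H) (hex : ¬ (s = false ∧ e = true ∧ u = 2 ∧ k + 2 = m)) {j : ℕ}
    (hc : cr s m k u H j = true) : False := by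
  match j, hc with
  | 0, hc => exact h.of_crude5 hs hH hex hc
  | 1, hc => exact h.of_crude5 hs hH hex hc
  | 2, hc => exact h.of_crude5 hs hH hex hc
  | 3, hc => exact h.of_crude5 hs hH hex hc
  | 4, hc => exact h.of_crudeL hs hc
  | 5, hc => exact h.of_crude16 hs hex hc
  | 6, hc => exact h.of_crude16 hs hex hc
  | 7, hc => exact h.of_crude7 hdm hs hc
  | 8, hc => exact h.of_crude7 hdm hs hc
  | 9, hc => exact h.of_crude8 hdm hH hs hc
  | n + 10, hc => simp [cr] at hc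

theorem z5_mono {s : Bool} {m k u u' j : ℕ} (hu : u ≤ u') (h : z5 s m k u j = true) : z5 s m k u' j = true := by
  match j, h with
  | 0, _ => rfl
  | 1, _ => rfl
  | 2, h =>
    simp only [z5, Bool.and_eq_true, Bool.or_eq_true, decide_eq_true_eq] at h ⊢
    exact ⟨h.1, h.2.imp id fun h1 => ⟨h1.1.trans hu, h1.2⟩⟩
  | 3, h =>
    simp only [z5, Bool.and_eq_true, Bool.or_eq_true, decide_eq_true_eq] at h ⊢
    exact ⟨h.1, h.2.1, h.2.2.imp id fun h1 => ⟨h1.1.trans hu, h1.2⟩⟩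
  | n + 4, h => simp [z5] at h

theorem crude5_mono {s : Bool} {m k u u' H j : ℕ} (hu : u ≤ u') (h : crude5 s m k u H j = true) :
    crude5 s m k u' H j = true := by
  rw [crude5] at h ⊢
  simp only [Bool.and_eq_true, decide_eq_true_eq] at h ⊢
  obtain ⟨⟨h1, h2⟩, ⟨h3, h4⟩, h5⟩ := h
  exact ⟨⟨h1, h2.trans_le (Nat.pow_le_pow_left hu _)⟩, ⟨h3, h4.trans_le (Nat.pow_le_pow_left hu _)⟩, z5_mono hu h5⟩

theorem crude16_mono {s : Bool} {m k u u' H j : ℕ} (hu : u ≤ u') (h : crude16 s m k u H j = true) :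
    crude16 s m k u' H j = true := by
  rw [crude16] at h ⊢
  simp only [Bool.and_eq_true, decide_eq_true_eq] at h ⊢
  obtain ⟨⟨h0, h0'⟩, ⟨h1, h2⟩, h3, h4⟩ := h
  exact ⟨⟨h0.trans hu, h0'⟩, ⟨h1, h2.trans_le (Nat.pow_le_pow_left hu _)⟩, h3, h4.trans_le (Nat.pow_le_pow_left hu _)⟩

theorem crudeL_mono {m k u u' H : ℕ} (hu : u ≤ u') (h : crudeL m k u H = true) : crudeL m k u' H = true := by
  rw [crudeL] at h ⊢
  simp only [Bool.and_eq_true, decide_eq_true_eq] at h ⊢
  exact ⟨h.1, h.2.trans_le (Nat.pow_le_pow_left hu _)⟩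

theorem crude7_mono {s : Bool} {m k u u' H j : ℕ} (hu : u ≤ u') (h : crude7 s m k u H j = true) :
    crude7 s m k u' H j = true := by
  rw [crude7] at h ⊢
  simp only [Bool.and_eq_true, decide_eq_true_eq] at h ⊢
  obtain ⟨⟨h0, h0'⟩, ⟨h1, h2⟩, h3, h4⟩ := h
  exact ⟨⟨h0.trans hu, h0'⟩, ⟨h1, h2.trans_le (Nat.pow_le_pow_left hu _)⟩, h3, h4.trans_le (Nat.pow_le_pow_left hu _)⟩

theorem crude8_mono {s : Bool} {m k u u' H : ℕ} (hu : u ≤ u') (h : crude8 s m k u H = true) :
    crude8 s m k u' H = true := by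
  rw [crude8] at h ⊢
  simp only [Bool.and_eq_true, decide_eq_true_eq] at h ⊢
  obtain ⟨⟨h0, h0', h0''⟩, ⟨h1, h2⟩, h4⟩ := h
  exact ⟨⟨h0, h0'.trans hu, h0''⟩, ⟨h1, h2.trans_le (Nat.pow_le_pow_left hu _)⟩,
    h4.trans_le (Nat.pow_le_pow_left hu _)⟩

theorem cr_mono {s : Bool} {m k u u' H j : ℕ} (hu : u ≤ u') (h : cr s m k u H j = true) : cr s m k u' H j = true := by
  match j, h with
  | 0, h => exact crude5_mono hu h
  | 1, h => exact crude5_mono hu h
  | 2, h => exact crude5_mono hu h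
  | 3, h => exact crude5_mono hu h
  | 4, h => exact crudeL_mono hu h
  | 5, h => exact crude16_mono hu h
  | 6, h => exact crude16_mono hu h
  | 7, h => exact crude7_mono hu h
  | 8, h => exact crude7_mono hu h
  | 9, h => exact crude8_mono hu h
  | n + 10, h => simp [cr] at h

/-- doubling -/
theorem step {K x y H a : ℕ} (hK : 1 ≤ K) (hx : 1 ≤ x) (hy : y ≤ 2 * x) (h : K * x < (2 ^ H) ^ a) :
    K * y < (2 ^ (H + 1)) ^ a := by
  have ha : 1 ≤ a := by
    rcases Nat.eq_zero_or_pos a with h0 | h0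
    · rw [h0, pow_zero] at h
      have := Nat.mul_le_mul hK hx
      omega
    · exact h0
  have h2a : 2 ^ 1 ≤ 2 ^ a := Nat.pow_le_pow_right (by norm_num) ha
  calc K * y ≤ K * (2 * x) := Nat.mul_le_mul_left _ hy
    _ = 2 * (K * x) := by ring
    _ < 2 * (2 ^ H) ^ a := Nat.mul_lt_mul_of_pos_left h (by norm_num)
    _ ≤ 2 ^ a * (2 ^ H) ^ a := Nat.mul_le_mul_right _ (by simpa using h2a)
    _ = _ := by rw [pow_succ, mul_pow, mul_comm]

theorem six_step {H : ℕ} (h : 9 ≤ H) : (H + 1) ^ 6 ≤ 2 * H ^ 6 := by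
  have h1 : 9 * (H + 1) ≤ 10 * H := by omega
  have h2 := Nat.pow_le_pow_left h1 6
  rw [mul_pow, mul_pow] at h2
  omega

theorem two_step {H : ℕ} (h : 9 ≤ H) : (H + 1) ^ 2 ≤ 2 * H ^ 2 := by nlinarith

theorem L1_pos (j : ℕ) : 1 ≤ L1 j := by
  match j with
  | 0 => norm_num [L1]
  | 1 => norm_num [L1]
  | n + 2 => simp [L1]

theorem L2_pos (j : ℕ) : 1 ≤ L2 j := by
  match j with
  | 0 => norm_num [L2]
  | 1 => norm_num [L2]
  | n + 2 => simp [L2]

theorem cr_succ {s : Bool} {m k H j : ℕ} (hm : 2 ≤ m) (hkm : k < m) (hH : 9 ≤ H) (h : cr s m k (2 ^ H) H j = true) :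
    cr s m k (2 ^ (H + 1)) (H + 1) j = true := by
  have hle : 2 ^ H ≤ 2 ^ (H + 1) := Nat.pow_le_pow_right (by norm_num) (by omega)
  have h6 : 1 ≤ H ^ 6 := Nat.one_le_pow _ _ (by omega)
  have h2' : 1 ≤ H ^ 2 := Nat.one_le_pow _ _ (by omega)
  have k5 : ∀ {j : ℕ}, crude5 s m k (2 ^ H) H j = true → crude5 s m k (2 ^ (H + 1)) (H + 1) j = true := by
    intro j h
    rw [crude5] at h ⊢
    simp only [Bool.and_eq_true, decide_eq_true_eq] at h ⊢
    obtain ⟨⟨h1, h2⟩, ⟨h3, h4⟩, h5⟩ := h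
    exact ⟨⟨h1, step (L1_pos j) h6 (six_step hH) h2⟩, ⟨h3, step (L2_pos j) h2' (two_step hH) h4⟩, z5_mono hle h5⟩
  have k16 : ∀ {j : ℕ}, crude16 s m k (2 ^ H) H j = true → crude16 s m k (2 ^ (H + 1)) (H + 1) j = true := by
    intro j h
    rw [crude16] at h ⊢
    simp only [Bool.and_eq_true, decide_eq_true_eq] at h ⊢
    obtain ⟨⟨h0, h0'⟩, ⟨h1, h2⟩, h3, h4⟩ := h
    exact ⟨⟨h0.trans hle, h0'⟩, ⟨h1, step (by norm_num) h6 (six_step hH) h2⟩, h3,
      step (by norm_num) h2' (two_step hH) h4⟩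
  have k7 : ∀ {j : ℕ}, crude7 s m k (2 ^ H) H j = true → crude7 s m k (2 ^ (H + 1)) (H + 1) j = true := by
    intro j h
    rw [crude7] at h ⊢
    simp only [Bool.and_eq_true, decide_eq_true_eq] at h ⊢
    obtain ⟨⟨h0, h0'⟩, ⟨h1, h2⟩, h3, h4⟩ := h
    exact ⟨⟨h0.trans hle, h0'⟩, ⟨h1, step (by norm_num) h6 (six_step hH) h2⟩, h3,
      step (Nat.mul_pos (by norm_num) (Nat.pow_pos (by omega))) h2' (two_step hH) h4⟩
  match j, h with
  | 0, h => exact k5 h
  | 1, h => exact k5 h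
  | 2, h => exact k5 h
  | 3, h => exact k5 h
  | 4, h =>
    rw [cr, crudeL] at h ⊢
    simp only [Bool.and_eq_true, decide_eq_true_eq] at h ⊢
    exact ⟨h.1, step (by norm_num) (by omega) (by omega) h.2⟩
  | 5, h => exact k16 h
  | 6, h => exact k16 h
  | 7, h => exact k7 h
  | 8, h => exact k7 h
  | 9, h =>
    rw [cr, crude8] at h ⊢
    simp only [Bool.and_eq_true, decide_eq_true_eq] at h ⊢
    obtain ⟨⟨h0, h0', h0''⟩, ⟨h1, h2⟩, h4⟩ := h
    exact ⟨⟨h0, h0'.trans hle, h0''⟩,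
      ⟨h1, step (Nat.mul_pos (by norm_num) (Nat.pow_pos (by omega))) h6 (six_step hH) h2⟩,
      step (Nat.mul_pos (Nat.mul_pos (by norm_num) (Nat.pow_pos (by omega))) (Nat.pow_pos (by omega))) h2'
        (two_step hH) h4⟩
  | n + 10, h => simp [cr] at h

/-- all `u` -/
def str5 (s : Bool) (m k : ℕ) : ℕ → Bool
  | 0 => decide (5 * rr s m k 0 + (m - 1) + 28 ≤ 5 * tau s m k 0) &&
      decide (5 * NA.nu s 0 + 3 + 2 * (m - 1) + 33 ≤ 5 * tau s m k 0)
  | 1 => decide (5 * rr s m k 1 + (m - 1) + 28 ≤ 5 * tau s m k 1) &&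
      decide (5 * NA.nu s 1 + 3 + 2 * (m - 1) + 33 ≤ 5 * tau s m k 1)
  | 2 => (decide (5 * rr s m k 2 + (m - 1) + 43 ≤ 5 * tau s m k 2) &&
      decide (5 * NA.nu s 2 + 3 + 2 * (m - 1) + 43 ≤ 5 * tau s m k 2)) && zcc s m k 6 2
  | 3 => (decide (5 * rr s m k 3 + (m - 1) + 43 ≤ 5 * tau s m k 3) &&
      decide (5 * NA.nu s 3 + 3 + 2 * (m - 1) + 43 ≤ 5 * tau s m k 3)) && zcc s m k 6 3
  | 4 => decide (11 + Nat.gcd k (m - k) + Nat.gcd k (m - k - 1) ≤ m - k)
  | _ => false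

theorem H6 {u H : ℕ} (h : 2 ^ H ≤ u) : H ^ 6 ≤ u ^ 4 := by
  refine le_trans ?_ (Nat.pow_le_pow_left h 4)
  rcases Nat.lt_or_ge H 8 with h1 | h1
  · interval_cases H <;> norm_num
  · clear h
    induction H, h1 using Nat.le_induction with
    | base => norm_num
    | succ n hn ih =>
      have h2 : 8 * (n + 1) ≤ 9 * n := by omega
      have h3 := Nat.pow_le_pow_left h2 6
      rw [mul_pow, mul_pow] at h3
      have h4 : (2 ^ (n + 1)) ^ 4 = 16 * (2 ^ n) ^ 4 := by rw [pow_succ 2 n, mul_pow]; ring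
      rw [h4]
      have h5 : (8 : ℕ) ^ 6 * (n + 1) ^ 6 ≤ 8 ^ 6 * (16 * (2 ^ n) ^ 4) := by
        calc (8 : ℕ) ^ 6 * (n + 1) ^ 6 ≤ 9 ^ 6 * n ^ 6 := h3
          _ ≤ 9 ^ 6 * (2 ^ n) ^ 4 := Nat.mul_le_mul_left _ ih
          _ ≤ (8 ^ 6 * 16) * (2 ^ n) ^ 4 := Nat.mul_le_mul_right _ (by norm_num)
          _ = _ := by ring
      exact Nat.le_of_mul_le_mul_left h5 (by norm_num)

theorem str5_cr {s : Bool} {m k j u H : ℕ} (hu : 2 ≤ u) (hH : 2 ^ H ≤ u) (h : str5 s m k j = true) :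
    cr s m k u H j = true := by
  have h6 := H6 hH
  have h2 : H ^ 2 ≤ u ^ 2 := Nat.pow_le_pow_left (Nat.lt_two_pow_self.le.trans hH) 2
  have h1 : H ^ 1 ≤ u ^ 1 := Nat.pow_le_pow_left (Nat.lt_two_pow_self.le.trans hH) 1
  have key : ∀ {K n a l x : ℕ}, K < 2 ^ n → l ≤ u ^ a → n + a ≤ x → K * l < u ^ x := by
    intro K n a l x hK hl hx
    have hp : 0 < u ^ a := Nat.pow_pos (by omega)
    calc K * l ≤ K * u ^ a := Nat.mul_le_mul_left _ hl
      _ < 2 ^ n * u ^ a := Nat.mul_lt_mul_of_pos_right hK hp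
      _ ≤ u ^ n * u ^ a := Nat.mul_le_mul_right _ (Nat.pow_le_pow_left hu n)
      _ = u ^ (n + a) := by rw [pow_add]
      _ ≤ u ^ x := Nat.pow_le_pow_right (by omega) hx
  match j, h with
  | 0, h =>
    simp only [str5, Bool.and_eq_true, decide_eq_true_eq] at h
    simp only [cr, crude5, Bool.and_eq_true, decide_eq_true_eq]
    exact ⟨⟨by omega, key (n := 24) (a := 4) (by norm_num [L1]) h6 (by omega)⟩,
      ⟨by omega, key (n := 31) (a := 2) (by norm_num [L2]) h2 (by omega)⟩, rfl⟩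
  | 1, h =>
    simp only [str5, Bool.and_eq_true, decide_eq_true_eq] at h
    simp only [cr, crude5, Bool.and_eq_true, decide_eq_true_eq]
    exact ⟨⟨by omega, key (n := 24) (a := 4) (by norm_num [L1]) h6 (by omega)⟩,
      ⟨by omega, key (n := 31) (a := 2) (by norm_num [L2]) h2 (by omega)⟩, rfl⟩
  | 2, h =>
    simp only [str5, Bool.and_eq_true, decide_eq_true_eq] at h
    simp only [cr, crude5, Bool.and_eq_true, decide_eq_true_eq]
    refine ⟨⟨by omega, key (n := 39) (a := 4) (by norm_num [L1]) h6 (by omega)⟩,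
      ⟨by omega, key (n := 41) (a := 2) (by norm_num [L2]) h2 (by omega)⟩, ?_⟩
    have h3 := h.2
    simp only [zcc, Bool.and_eq_true, decide_eq_true_eq] at h3
    simp only [z5, Bool.and_eq_true, Bool.or_eq_true, decide_eq_true_eq]
    exact ⟨h3.1, Or.inl h3.2⟩
  | 3, h =>
    simp only [str5, Bool.and_eq_true, decide_eq_true_eq] at h
    simp only [cr, crude5, Bool.and_eq_true, decide_eq_true_eq]
    refine ⟨⟨by omega, key (n := 39) (a := 4) (by norm_num [L1]) h6 (by omega)⟩,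
      ⟨by omega, key (n := 41) (a := 2) (by norm_num [L2]) h2 (by omega)⟩, ?_⟩
    have h3 := h.2
    simp only [zcc, Bool.and_eq_true, decide_eq_true_eq] at h3
    simp only [z5, Bool.and_eq_true, Bool.or_eq_true, decide_eq_true_eq]
    exact ⟨h3.1, h3.2.1, Or.inl h3.2.2⟩
  | 4, h =>
    simp only [str5, decide_eq_true_eq] at h
    simp only [cr, crudeL, Bool.and_eq_true, decide_eq_true_eq]
    refine ⟨by omega, ?_⟩
    rw [pow_one, pow_one] at h1
    have h3 : H < u ^ 1 := by rw [pow_one]; exact (Nat.lt_two_pow_self).trans_le hH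
    have h4 : 512 * H < 512 * u ^ 1 := Nat.mul_lt_mul_of_pos_left h3 (by norm_num)
    have h5 : 512 * u ^ 1 ≤ u ^ (m - k - (1 + Nat.gcd k (m - k) + Nat.gcd k (m - k - 1))) := by
      calc 512 * u ^ 1 = 2 ^ 9 * u ^ 1 := by norm_num
        _ ≤ u ^ 9 * u ^ 1 := Nat.mul_le_mul_right _ (Nat.pow_le_pow_left hu 9)
        _ = u ^ 10 := by rw [← pow_add]
        _ ≤ _ := Nat.pow_le_pow_right (by omega) (by omega)
    exact h4.trans_le h5
  | n + 5, h => simp [str5] at h

/-- `m ≥ 200` -/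
theorem str5_of_large {s : Bool} {m k : ℕ} (hm : 200 ≤ m) (hk : 3 ≤ k) (hkm : k + 2 ≤ m) (hn : ¬ k ∣ ii s m) :
    ∃ j, str5 s m k j = true := by
  have hne : s = true → 2 * k ≠ m := by
    rintro rfl h
    exact hn (Dvd.intro_left 2 h)
  obtain ⟨δ, hδ⟩ : ∃ δ, δ = 2 * k - m + (m - 2 * k) := ⟨_, rfl⟩
  obtain ⟨g, hg0⟩ : ∃ g, g = Nat.gcd k (m - k) := ⟨_, rfl⟩
  have hgk : g ∣ k := by rw [hg0]; exact Nat.gcd_dvd_left _ _
  have hgm : g ∣ m - k := by rw [hg0]; exact Nat.gcd_dvd_right _ _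
  have hgδ : g ∣ δ := by
    rcases Nat.lt_or_ge k (m - k) with h1 | h1
    · have h2 := Nat.dvd_sub hgm hgk
      rwa [show m - k - k = δ by omega] at h2
    · have h2 := Nat.dvd_sub hgk hgm
      rwa [show k - (m - k) = δ by omega] at h2
  have hg : 2 * k ≠ m → (g = δ ∨ 2 * g ≤ δ) := by
    intro h
    obtain ⟨x, hx⟩ := hgδ
    rcases Nat.lt_or_ge x 2 with h2 | h2
    · left
      have : x = 1 := by
        rcases Nat.eq_zero_or_pos x with h3 | h3
        · rw [h3, mul_zero] at hx; omega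
        · omega
      rw [hx, this, mul_one]
    · right
      rw [hx, mul_comm 2 g]
      exact Nat.mul_le_mul_left _ h2
  -- the case `m = 5 δ`
  have big : g = δ → m ≤ 5 * δ + 36 → 5 * δ ≤ m + 40 → str5 s m k 4 = true := by
    intro h1 h2 h3
    have hδ0 : 0 < δ := by omega
    obtain ⟨x, hx⟩ := hgk
    rw [h1] at hx
    rcases Nat.lt_or_ge k (m - k) with h4 | h4
    · -- `k = 2 δ`
      have hx2 : x = 2 := by
        rcases Nat.lt_or_ge x 2 with h5 | h5
        · have : δ * x ≤ δ * 1 := Nat.mul_le_mul_left _ (by omega)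
          omega
        rcases Nat.lt_or_ge 2 x with h6 | h6
        · have : δ * 3 ≤ δ * x := Nat.mul_le_mul_left _ (by omega)
          omega
        · omega
      rw [hx2] at hx
      have h5 : Nat.gcd k (m - k - 1) ≤ 2 := by
        refine Nat.le_of_dvd (by norm_num) ?_
        have e1 := (Nat.gcd_dvd_left k (m - k - 1)).mul_left 3
        have e2 := (Nat.gcd_dvd_right k (m - k - 1)).mul_left 2
        have e3 := Nat.dvd_sub e1 e2
        rwa [show 3 * k - 2 * (m - k - 1) = 2 by omega] at e3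
      simp only [str5, decide_eq_true_eq]
      omega
    · have hx3 : x = 3 := by
        rcases Nat.lt_or_ge x 3 with h5 | h5
        · have : δ * x ≤ δ * 2 := Nat.mul_le_mul_left _ (by omega)
          omega
        rcases Nat.lt_or_ge 3 x with h6 | h6
        · have : δ * 4 ≤ δ * x := Nat.mul_le_mul_left _ (by omega)
          omega
        · omega
      rw [hx3] at hx
      have h5 : Nat.gcd k (m - k - 1) ≤ 3 := by
        refine Nat.le_of_dvd (by norm_num) ?_
        have e1 := (Nat.gcd_dvd_left k (m - k - 1)).mul_left 2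
        have e2 := (Nat.gcd_dvd_right k (m - k - 1)).mul_left 3
        have e3 := Nat.dvd_sub e1 e2
        rwa [show 2 * k - 3 * (m - k - 1) = 3 by omega] at e3
      simp only [str5, decide_eq_true_eq]
      omega
  cases s with
  | true =>
    have h1 := hne rfl
    have h2 := hg h1
    by_cases c0 : 5 * (m - k - 1) + (m - 1) + 28 ≤ 5 * (k - 1)
    · refine ⟨0, ?_⟩
      simp only [str5, rr, tau, NA.nu, if_true, Bool.and_eq_true, decide_eq_true_eq]
      omega
    by_cases c1 : 5 * (k - 1) + (m - 1) + 28 ≤ 5 * (m - k - 1)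
    · refine ⟨1, ?_⟩
      simp only [str5, rr, tau, NA.nu, Bool.and_eq_true, decide_eq_true_eq]
      omega
    by_cases c2 : 5 * (max k (m - k) - 1) + (m - 1) + 43 ≤ 5 * (m - 1 - g)
    · refine ⟨2, ?_⟩
      simp only [str5, rr, tau, NA.nu, zcc, if_true, Bool.and_eq_true, decide_eq_true_eq]
      rw [← hg0]
      rcases Nat.lt_or_ge k (m - k) with h3 | h3
      · rw [max_eq_right h3.le] at c2
        rw [max_eq_right h3.le, min_eq_left h3.le]
        omega
      · rw [max_eq_left h3] at c2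
        rw [max_eq_left h3, min_eq_right h3]
        omega
    · refine ⟨4, big ?_ ?_ ?_⟩
      · rcases Nat.lt_or_ge k (m - k) with h3 | h3
        · rw [max_eq_right h3.le] at c2; omega
        · rw [max_eq_left h3] at c2; omega
      · rcases Nat.lt_or_ge k (m - k) with h3 | h3
        · rw [max_eq_right h3.le] at c2; omega
        · rw [max_eq_left h3] at c2; omega
      · rcases Nat.lt_or_ge k (m - k) with h3 | h3
        · rw [max_eq_right h3.le] at c2; omega
        · rw [max_eq_left h3] at c2; omega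
  | false =>
    by_cases c0 : 5 * (m - k - 1) + (m - 1) + 28 ≤ 5 * k
    · refine ⟨0, ?_⟩
      simp only [str5, rr, tau, NA.nu, Bool.false_eq_true, if_false, Bool.and_eq_true, decide_eq_true_eq]
      omega
    by_cases c1 : 5 * (k - 1) + (m - 1) + 28 ≤ 5 * (m - k - 1)
    · refine ⟨1, ?_⟩
      simp only [str5, rr, tau, NA.nu, Bool.and_eq_true, decide_eq_true_eq]
      omega
    by_cases h1 : 2 * k = m
    · refine ⟨3, ?_⟩
      have h4 : Nat.gcd k (m - 1 - k) ≤ 1 := by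
        refine Nat.le_of_dvd one_pos ?_
        have h2 := Nat.dvd_sub (Nat.gcd_dvd_left k (m - 1 - k)) (Nat.gcd_dvd_right k (m - 1 - k))
        rwa [show k - (m - 1 - k) = 1 by omega] at h2
      simp only [str5, rr, tau, NA.nu, zcc, Bool.not_false, Bool.true_and, Bool.and_eq_true, decide_eq_true_eq]
      rw [max_eq_left (by omega), min_eq_right (by omega)]
      omega
    have h2 := hg h1
    by_cases c2 : 5 * (max k (m - k)) + (m - 1) + 43 ≤ 5 * (m - 1 - g)
    · refine ⟨2, ?_⟩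
      simp only [str5, rr, tau, NA.nu, zcc, Bool.false_eq_true, if_false, Bool.and_eq_true, decide_eq_true_eq]
      rw [← hg0]
      rcases Nat.lt_or_ge k (m - k) with h3 | h3
      · rw [max_eq_right h3.le] at c2
        rw [max_eq_right h3.le, min_eq_left h3.le]
        omega
      · rw [max_eq_left h3] at c2
        rw [max_eq_left h3, min_eq_right h3]
        omega
    · refine ⟨4, big ?_ ?_ ?_⟩
      · rcases Nat.lt_or_ge k (m - k) with h3 | h3
        · rw [max_eq_right h3.le] at c2; omega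
        · rw [max_eq_left h3] at c2; omega
      · rcases Nat.lt_or_ge k (m - k) with h3 | h3
        · rw [max_eq_right h3.le] at c2; omega
        · rw [max_eq_left h3] at c2; omega
      · rcases Nat.lt_or_ge k (m - k) with h3 | h3
        · rw [max_eq_right h3.le] at c2; omega
        · rw [max_eq_left h3] at c2; omega

end Cfsg.Agent.R2.Spec.NA5
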